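import Mathlib

set_option autoImplicit false

/-! # Local fusion graph of the symmetric group: basic tools

`OddOrd u` : the permutation `u` has odd order.  The key lemma `OddOrd.insert` says that inserting
two fixed points of `w` into a cycle of `w` preserves oddness of the order. -/

namespace Cfsg.Agent.Lib.Helper78.LFG

open Equiv Equiv.Perm

variable {Ω : Type*} [DecidableEq Ω]

/-- `u` has odd order -/
def OddOrd (u : Perm Ω) : Prop := ∃ N : ℕ, Odd N ∧ u ^ N = 1

theorem oddOrd_iff (u : Perm Ω) : OddOrd u ↔ Odd (orderOf u) := by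
  constructor
  · rintro ⟨N, hN, h⟩
    exact Odd.of_dvd_nat hN (orderOf_dvd_of_pow_eq_one h)
  · intro h
    exact ⟨_, h, pow_orderOf_eq_one u⟩

theorem oddOrd_one : OddOrd (1 : Perm Ω) := ⟨1, odd_one, by simp⟩

theorem OddOrd.conj {u : Perm Ω} (h : OddOrd u) (g : Perm Ω) : OddOrd (g * u * g⁻¹) := by
  obtain ⟨N, hN, h⟩ := h
  exact ⟨N, hN, by rw [conj_pow, h]; simp⟩

theorem OddOrd.comm {u v : Perm Ω} (h : OddOrd (u * v)) : OddOrd (v * u) := by
  have := h.conj v
  simpa [mul_assoc] using this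

theorem OddOrd.inv {u : Perm Ω} (h : OddOrd u) : OddOrd u⁻¹ := by
  obtain ⟨N, hN, h⟩ := h
  exact ⟨N, hN, by rw [inv_pow, h, inv_one]⟩

/-- the 3-cycle `p → q → r → p` -/
def c3 (p q r : Ω) : Perm Ω := swap p q * swap q r

theorem c3_fst {p q r : Ω} (hpq : p ≠ q) (hpr : p ≠ r) : c3 p q r p = q := by
  simp [c3, swap_apply_of_ne_of_ne hpq hpr]

theorem c3_snd {p q r : Ω} (hpr : p ≠ r) (hqr : q ≠ r) : c3 p q r q = r := by
  simp [c3, swap_apply_of_ne_of_ne hpr.symm hqr.symm]

theorem c3_trd {p q r : Ω} : c3 p q r r = p := by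
  simp [c3]

theorem c3_of_ne {p q r s : Ω} (hp : s ≠ p) (hq : s ≠ q) (hr : s ≠ r) : c3 p q r s = s := by
  simp [c3, swap_apply_of_ne_of_ne hq hr, swap_apply_of_ne_of_ne hp hq]

theorem c3_rot {p q r : Ω} (hpq : p ≠ q) (hpr : p ≠ r) (hqr : q ≠ r) : c3 p q r = c3 q r p := by
  ext s
  by_cases hp : s = p
  · subst hp; rw [c3_fst hpq hpr, c3_trd]
  by_cases hq : s = q
  · subst hq; rw [c3_snd hpr hqr, c3_fst hqr hpq.symm]
  by_cases hr : s = r
  · subst hr; rw [c3_trd, c3_snd hpq.symm hpr.symm]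
  rw [c3_of_ne hp hq hr, c3_of_ne hq hr hp]

/-- **Insertion lemma**: if `w` has odd order and fixes `q ≠ r`, then inserting `q, r` after `p`
in the cycle of `p` gives a permutation of odd order. -/
theorem OddOrd.insert {w : Perm Ω} (hw : OddOrd w) {p q r : Ω} (hpq : p ≠ q) (hpr : p ≠ r)
    (hqr : q ≠ r) (hq : w q = q) (hr : w r = r) : OddOrd (w * c3 p q r) := by
  obtain ⟨N, hN, hwN⟩ := hw
  set u := w * c3 p q r with hu
  have up : u p = q := by rw [hu, Perm.mul_apply, c3_fst hpq hpr, hq]
  have uq : u q = r := by rw [hu, Perm.mul_apply, c3_snd hpr hqr, hr]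
  have ur : u r = w p := by rw [hu, Perm.mul_apply, c3_trd]
  have us : ∀ s, s ≠ p → s ≠ q → s ≠ r → u s = w s := fun s h1 h2 h3 => by
    rw [hu, Perm.mul_apply, c3_of_ne h1 h2 h3]
  set L := Function.minimalPeriod w p with hL
  have hper : Function.IsPeriodicPt w N p := by
    show (w : Ω → Ω)^[N] p = p
    rw [← Perm.coe_pow, hwN]; rfl
  have hLN : L ∣ N := hper.minimalPeriod_dvd
  have hLodd : Odd L := Odd.of_dvd_nat hN hLN
  have hLpos : 0 < L := hLodd.pos
  have wq : ∀ i : ℕ, (w ^ i) q = q := fun i => by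
    induction i with
    | zero => simp
    | succ n ih => rw [pow_succ, Perm.mul_apply, hq, ih]
  have wr : ∀ i : ℕ, (w ^ i) r = r := fun i => by
    induction i with
    | zero => simp
    | succ n ih => rw [pow_succ, Perm.mul_apply, hr, ih]
  -- the points `w ^ i p`, `0 < i < L`, avoid `p, q, r`
  have hav : ∀ i : ℕ, 0 < i → i < L → (w ^ i) p ≠ p ∧ (w ^ i) p ≠ q ∧ (w ^ i) p ≠ r := by
    intro i h0 hi
    refine ⟨?_, ?_, ?_⟩
    · intro h
      have : Function.IsPeriodicPt w i p := by
        show (w : Ω → Ω)^[i] p = p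
        rw [← Perm.coe_pow]; exact h
      exact absurd (this.minimalPeriod_le h0) (by omega)
    · intro h
      exact hpq ((w ^ i).injective (h.trans (wq i).symm))
    · intro h
      exact hpr ((w ^ i).injective (h.trans (wr i).symm))
  have hB : ∀ i : ℕ, i < L → (u ^ i) (w p) = (w ^ (i + 1)) p := by
    intro i
    induction i with
    | zero => intro _; simp
    | succ n ih =>
      intro hn
      rw [pow_succ', Perm.mul_apply, ih (by omega)]
      obtain ⟨h1, h2, h3⟩ := hav (n + 1) (by omega) hn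
      rw [us _ h1 h2 h3, pow_succ' w (n + 1), Perm.mul_apply]
  have hwL : (w ^ L) p = p := by
    have := Function.isPeriodicPt_minimalPeriod w p
    rw [Perm.coe_pow]; exact this
  have hup : (u ^ (L + 2)) p = p := by
    have e : L + 2 = (L - 1) + 3 := by omega
    rw [e, pow_add, Perm.mul_apply]
    have e3 : (u ^ 3) p = w p := by
      rw [pow_succ, pow_succ, pow_one, Perm.mul_apply, Perm.mul_apply, up, uq, ur]
    rw [e3, hB (L - 1) (by omega)]
    have : L - 1 + 1 = L := by omega
    rw [this, hwL]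
  refine ⟨N * (L + 2), hN.mul (by
    obtain ⟨k, hk⟩ := hLodd
    exact ⟨k + 1, by omega⟩), ?_⟩
  ext s
  rw [Perm.one_apply]
  by_cases hs : SameCycle u p s
  · obtain ⟨i, rfl⟩ := hs
    have h1 : (u ^ (L + 2)) ((u ^ i) p) = (u ^ i) p := by
      rw [← Perm.mul_apply, ← zpow_natCast, ← zpow_add, add_comm, zpow_add, Perm.mul_apply,
        zpow_natCast, hup]
    rw [mul_comm, pow_mul]
    have : ∀ k : ℕ, ((u ^ (L + 2)) ^ k) ((u ^ i) p) = (u ^ i) p := fun k => by
      induction k with
      | zero => simp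
      | succ n ih => rw [pow_succ, Perm.mul_apply, h1, ih]
    exact this N
  · have hns : ∀ j : ℕ, (u ^ j) s = (w ^ j) s ∧ ¬ SameCycle u p ((u ^ j) s) := by
      intro j
      induction j with
      | zero => simpa using hs
      | succ n ih =>
        obtain ⟨ih1, ih2⟩ := ih
        have h1 : (u ^ n) s ≠ p := fun h => ih2 (h ▸ SameCycle.refl u p)
        have h2 : (u ^ n) s ≠ q := fun h => ih2 (by
          rw [h, ← up]; exact (sameCycle_apply_right).2 (SameCycle.refl u p))
        have h3 : (u ^ n) s ≠ r := fun h => ih2 (by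
          rw [h, ← uq, ← up]
          exact (sameCycle_apply_right).2 ((sameCycle_apply_right).2 (SameCycle.refl u p)))
        constructor
        · rw [pow_succ', Perm.mul_apply, us _ h1 h2 h3, ih1, pow_succ' w, Perm.mul_apply]
        · rw [pow_succ', Perm.mul_apply]
          exact fun h => ih2 ((sameCycle_apply_right).1 h)
    rw [pow_mul]
    have h1 : (u ^ N) s = s := by rw [(hns N).1, hwN]; rfl
    have : ∀ k : ℕ, ((u ^ N) ^ k) s = s := fun k => by
      induction k with
      | zero => simp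
      | succ n ih => rw [pow_succ, Perm.mul_apply, h1, ih]
    exact this (L + 2)

end Cfsg.Agent.Lib.Helper78.LFG
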