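import Cfsg.Agent.Lib.Helper78.LFG.Red

set_option autoImplicit false
set_option linter.unusedSectionVars false

/-! # Local fusion graph of the symmetric group: configurations and peeling -/

namespace Cfsg.Agent.Lib.Helper78.LFG

open Equiv Equiv.Perm

variable {Ω : Type*} [DecidableEq Ω] [Fintype Ω]

/-- two involutions (or 1) supported on `S` with the same number of moved points -/
structure Cfg (S : Finset Ω) (x y : Perm Ω) : Prop where
  xx : x * x = 1
  yy : y * y = 1
  xS : ∀ s, s ∉ S → x s = s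
  yS : ∀ s, s ∉ S → y s = s
  card : x.support.card = y.support.card

/-- a common neighbour supported on `S` -/
def Sol (S : Finset Ω) (x y : Perm Ω) : Prop :=
  ∃ z : Perm Ω, z * z = 1 ∧ (∀ s, s ∉ S → z s = s) ∧ OddOrd (x * z) ∧ OddOrd (y * z)

/-- `a -x- b -y- c -x- d -y- a` -/
def IsC4 (x y : Perm Ω) (a b c d : Ω) : Prop :=
  [a, b, c, d].Nodup ∧ x a = b ∧ y b = c ∧ x c = d ∧ y d = a

/-- the exceptional configuration -/
def Exc (S : Finset Ω) (x y : Perm Ω) : Prop :=
  ∃ a b c d, IsC4 x y a b c d ∧ S = {a, b, c, d}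

def IHyp (S : Finset Ω) : Prop :=
  ∀ (S' : Finset Ω) (x' y' : Perm Ω), S'.card < S.card → Cfg S' x' y' → ¬ Exc S' x' y' →
    Sol S' x' y'

theorem Cfg.symm {S : Finset Ω} {x y : Perm Ω} (h : Cfg S x y) : Cfg S y x :=
  ⟨h.yy, h.xx, h.yS, h.xS, h.card.symm⟩

theorem Sol.symm {S : Finset Ω} {x y : Perm Ω} (h : Sol S x y) : Sol S y x := by
  obtain ⟨z, h1, h2, h3, h4⟩ := h
  exact ⟨z, h1, h2, h4, h3⟩

theorem Sol.mono {S S' : Finset Ω} {x y : Perm Ω} (h : Sol S' x y) (hS : S' ⊆ S) : Sol S x y := by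
  obtain ⟨z, h1, h2, h3, h4⟩ := h
  exact ⟨z, h1, fun s hs => h2 s (fun h => hs (hS h)), h3, h4⟩

theorem inv_apply {x : Perm Ω} (hx : x * x = 1) (s : Ω) : x (x s) = s := by
  have := congrArg (fun f : Perm Ω => f s) hx
  simpa using this

theorem IsC4.symm {x y : Perm Ω} {a b c d : Ω} (h : IsC4 x y a b c d) : IsC4 y x b c d a := by
  obtain ⟨hnd, h1, h2, h3, h4⟩ := h
  exact ⟨by simp only [List.nodup_cons, List.mem_cons] at hnd ⊢; tauto, h2, h3, h4, h1⟩

/-- `x'` is `x` with the block `X` (supported on `T`, moving `k` points) removed -/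
def Peeled (x x' X : Perm Ω) (T : Finset Ω) (k : ℕ) : Prop :=
  x' * x' = 1 ∧ (∀ s ∈ T, x' s = s) ∧ (∀ s, s ∉ T → x' s = x s) ∧ x' * X = x ∧
    x'.support.card + k = x.support.card

theorem peel1 {x : Perm Ω} (hx : x * x = 1) {a b : Ω} (hab : a ≠ b) (h : x a = b) :
    Peeled x (x * swap a b) (swap a b) {a, b} 2 := by
  have hb : x b = a := by rw [← h, inv_apply hx]
  have hc : Commute (swap a b) x := by
    show swap a b * x = x * swap a b
    rw [mul_swap_eq_swap_mul, h, hb, swap_comm]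
  have fa : (x * swap a b) a = a := by rw [Perm.mul_apply, swap_apply_left, hb]
  have fb : (x * swap a b) b = b := by rw [Perm.mul_apply, swap_apply_right, h]
  have e : x * swap a b * swap a b = x := by rw [mul_assoc, swap_mul_self, mul_one]
  refine ⟨sq_mul hx (swap_mul_self a b) hc, ?_, ?_, e, ?_⟩
  · intro s hs
    simp only [Finset.mem_insert, Finset.mem_singleton] at hs
    rcases hs with rfl | rfl
    · exact fa
    · exact fb
  · intro s hs
    simp only [Finset.mem_insert, Finset.mem_singleton, not_or] at hs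
    rw [Perm.mul_apply, swap_apply_of_ne_of_ne hs.1 hs.2]
  · have hd : Perm.Disjoint (x * swap a b) (swap a b) := by
      intro s
      by_cases h1 : s = a
      · left; rw [h1]; exact fa
      by_cases h2 : s = b
      · left; rw [h2]; exact fb
      right; exact swap_apply_of_ne_of_ne h1 h2
    have := hd.card_support_mul
    rw [e, card_support_swap hab] at this
    exact this.symm

theorem Peeled.trans {x x' x'' X X' : Perm Ω} {T T' : Finset Ω} {k k' : ℕ}
    (h : Peeled x x' X T k) (h' : Peeled x' x'' X' T' k') :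
    Peeled x x'' (X' * X) (T ∪ T') (k + k') := by
  obtain ⟨-, h2, h3, h4, h5⟩ := h
  obtain ⟨g1, g2, g3, g4, g5⟩ := h'
  refine ⟨g1, ?_, ?_, by rw [← mul_assoc, g4, h4], by omega⟩
  · intro s hs
    by_cases hT' : s ∈ T'
    · exact g2 s hT'
    · rw [g3 s hT']
      exact h2 s ((Finset.mem_union.1 hs).resolve_right hT')
  · intro s hs
    rw [Finset.mem_union, not_or] at hs
    rw [g3 s hs.2, h3 s hs.1]

/-- peel `(a b)(c d)` -/
theorem peel2 {x : Perm Ω} (hx : x * x = 1) {a b c d : Ω} (hnd : [a, b, c, d].Nodup)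
    (h1 : x a = b) (h2 : x c = d) :
    Peeled x (x * swap c d * swap a b) (swap a b * swap c d) ({c, d} ∪ {a, b}) 4 := by
  have p1 := peel1 hx (a := c) (b := d) (by rintro rfl; simp at hnd) h2
  have e : (x * swap c d) a = b := by
    rw [p1.2.2.1 a (by
      simp only [Finset.mem_insert, Finset.mem_singleton, not_or]
      exact ⟨by rintro rfl; simp at hnd, by rintro rfl; simp at hnd⟩), h1]
  exact p1.trans (peel1 p1.1 (by rintro rfl; simp at hnd) e)

theorem supp_sdiff {x' : Perm Ω} {S T : Finset Ω} (h1 : ∀ s ∈ T, x' s = s)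
    (h2 : ∀ s, s ∉ S → x' s = s) : ∀ s, s ∉ S \ T → x' s = s := by
  intro s hs
  by_cases hT : s ∈ T
  · exact h1 s hT
  · exact h2 s (fun hS => hs (Finset.mem_sdiff.2 ⟨hS, hT⟩))

theorem Peeled.out {x x' X : Perm Ω} {T S : Finset Ω} {k : ℕ} (h : Peeled x x' X T k)
    (hxS : ∀ s, s ∉ S → x s = s) : ∀ s, s ∉ S → x' s = s := by
  intro s hs
  by_cases hT : s ∈ T
  · exact h.2.1 s hT
  · rw [h.2.2.1 s hT]; exact hxS s hs

theorem mem_of_moved {x : Perm Ω} {S : Finset Ω} (hxS : ∀ s, s ∉ S → x s = s) {a : Ω}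
    (h : x a ≠ a) : a ∈ S := by
  by_contra hn
  exact h (hxS a hn)

theorem card_sdiff_lt {S T : Finset Ω} {a : Ω} (ha : a ∈ S) (haT : a ∈ T) :
    (S \ T).card < S.card := by
  apply Finset.card_lt_card
  refine ⟨Finset.sdiff_subset, fun h => ?_⟩
  exact (Finset.mem_sdiff.1 (h ha)).2 haT

/-- an exceptional configuration after removing blocks gives a 4-cycle of the original pair -/
theorem exc_transfer {x y x' y' : Perm Ω} {S T : Finset Ω} (h : Exc (S \ T) x' y')
    (hx : ∀ s, s ∉ T → x' s = x s) (hy : ∀ s, s ∉ T → y' s = y s) :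
    ∃ a b c d, IsC4 x y a b c d := by
  obtain ⟨a, b, c, d, ⟨hnd, h1, h2, h3, h4⟩, hS⟩ := h
  have hm : ∀ s ∈ ({a, b, c, d} : Finset Ω), s ∉ T := fun s hs => by
    rw [← hS] at hs
    exact (Finset.mem_sdiff.1 hs).2
  refine ⟨a, b, c, d, hnd, ?_, ?_, ?_, ?_⟩
  · rw [← hx a (hm a (by simp))]; exact h1
  · rw [← hy b (hm b (by simp))]; exact h2
  · rw [← hx c (hm c (by simp))]; exact h3
  · rw [← hy d (hm d (by simp))]; exact h4

/-- in an exceptional configuration every point starts a 4-cycle -/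
theorem Exc.at {S : Finset Ω} {x y : Perm Ω} (h : Exc S x y) (hx : x * x = 1) (hy : y * y = 1)
    {p : Ω} (hp : p ∈ S) :
    IsC4 x y p (x p) (y (x p)) (x (y (x p))) ∧ S = {p, x p, y (x p), x (y (x p))} := by
  obtain ⟨a, b, c, d, ⟨hnd, h1, h2, h3, h4⟩, rfl⟩ := h
  have g1 : x b = a := by rw [← h1, inv_apply hx]
  have g2 : y c = b := by rw [← h2, inv_apply hy]
  have g3 : x d = c := by rw [← h3, inv_apply hx]
  have g4 : y a = d := by rw [← h4, inv_apply hy]
  simp only [Finset.mem_insert, Finset.mem_singleton] at hp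
  rcases hp with rfl | rfl | rfl | rfl
  · rw [h1, h2, h3]
    exact ⟨⟨hnd, h1, h2, h3, h4⟩, rfl⟩
  · rw [g1, g4, g3]
    refine ⟨⟨by simp only [List.nodup_cons, List.mem_cons] at hnd ⊢; tauto, g1, g4, g3, g2⟩, ?_⟩
    ext s; simp only [Finset.mem_insert, Finset.mem_singleton]; tauto
  · rw [h3, h4, h1]
    refine ⟨⟨by simp only [List.nodup_cons, List.mem_cons] at hnd ⊢; tauto, h3, h4, h1, h2⟩, ?_⟩
    ext s; simp only [Finset.mem_insert, Finset.mem_singleton]; tauto
  · rw [g3, g2, g1]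
    refine ⟨⟨by simp only [List.nodup_cons, List.mem_cons] at hnd ⊢; tauto, g3, g2, g1, g4⟩, ?_⟩
    ext s; simp only [Finset.mem_insert, Finset.mem_singleton]; tauto

/-- counting: a point moved by `x` and fixed by `y` forces a point fixed by `x` and moved by `y` -/
theorem exists_dual {x y : Perm Ω} (hc : x.support.card = y.support.card) {a : Ω}
    (h1 : y a = a) (h2 : x a ≠ a) : ∃ c, x c = c ∧ y c ≠ c := by
  by_contra hcon
  push Not at hcon
  have hsub : y.support ⊆ x.support := by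
    intro s hs
    rw [Perm.mem_support] at hs ⊢
    exact fun h => hs (hcon s h)
  have heq := Finset.eq_of_subset_of_card_le hsub hc.le
  have : a ∈ y.support := by rw [heq, Perm.mem_support]; exact h2
  exact (Perm.mem_support.1 this) h1

end Cfsg.Agent.Lib.Helper78.LFG
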