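import Cfsg.Agent.Lib.Helper78.LFG.Base

set_option autoImplicit false
set_option linter.unusedSimpArgs false

/-! # Identities between products of transpositions on distinct points -/

namespace Cfsg.Agent.Lib.Helper78.LFG

open Equiv Equiv.Perm

variable {Ω : Type*} [DecidableEq Ω]

/-- transport of permutations of `Fin k` along an injective enumeration of points -/
noncomputable def tr {k : ℕ} (f : Fin k ↪ Ω) : Perm (Fin k) →* Perm Ω := by
  classical exact viaEmbeddingHom f

theorem tr_swap {k : ℕ} (f : Fin k ↪ Ω) (i j : Fin k) : tr f (swap i j) = swap (f i) (f j) := by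
  classical
  ext s
  by_cases hs : s ∈ Set.range f
  · obtain ⟨t, rfl⟩ := hs
    show (swap i j).viaEmbedding f (f t) = _
    rw [viaEmbedding_apply, ← f.injective.swap_apply]
  · show (swap i j).viaEmbedding f s = _
    rw [viaEmbedding_apply_of_notMem _ _ _ hs, swap_apply_of_ne_of_ne]
    · rintro rfl; exact hs ⟨i, rfl⟩
    · rintro rfl; exact hs ⟨j, rfl⟩

/-- an embedding from a duplicate-free list -/
def embL (l : List Ω) (h : l.Nodup) : Fin l.length ↪ Ω := ⟨l.get, List.nodup_iff_injective_get.1 h⟩

theorem id_R3 {a b c d e f : Ω} (hnd : [a, b, c, d, e, f].Nodup) :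
    swap b c * swap d e * (swap a f * (swap a b * swap c d * swap e f)) =
      c3 a c e * c3 f d b := by
  have key : (swap 1 2 * swap 3 4 * (swap 0 5 * (swap 0 1 * swap 2 3 * swap 4 5)) : Perm (Fin 6)) =
      (swap 0 2 * swap 2 4) * (swap 5 3 * swap 3 1) := by decide
  have := congrArg (tr (embL _ hnd)) key
  simp only [map_mul, tr_swap, map_one] at this
  exact this

theorem id_R5x {a b c : Ω} (hnd : [a, b, c].Nodup) :
    swap a b * swap a c =
      c3 a c b := by
  have key : (swap 0 1 * swap 0 2 : Perm (Fin 3)) =
      (swap 0 2 * swap 2 1) := by decide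
  have := congrArg (tr (embL _ hnd)) key
  simp only [map_mul, tr_swap, map_one] at this
  exact this

theorem id_R5y {a c d : Ω} (hnd : [a, c, d].Nodup) :
    swap c d * swap a c =
      c3 a d c := by
  have key : (swap 1 2 * swap 0 1 : Perm (Fin 3)) =
      (swap 0 2 * swap 2 1) := by decide
  have := congrArg (tr (embL _ hnd)) key
  simp only [map_mul, tr_swap, map_one] at this
  exact this

theorem id_Ax {a b c d p : Ω} (hnd : [a, b, c, d, p].Nodup) :
    swap a b * swap c d * (swap p a * swap b c) =
      c3 p b d * c3 d c a := by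
  have key : (swap 0 1 * swap 2 3 * (swap 4 0 * swap 1 2) : Perm (Fin 5)) =
      (swap 4 1 * swap 1 3) * (swap 3 2 * swap 2 0) := by decide
  have := congrArg (tr (embL _ hnd)) key
  simp only [map_mul, tr_swap, map_one] at this
  exact this

theorem id_Ay {a b c d p : Ω} (hnd : [a, b, c, d, p].Nodup) :
    swap b c * swap d a * (swap p a * swap b c) =
      c3 p d a := by
  have key : (swap 1 2 * swap 3 0 * (swap 4 0 * swap 1 2) : Perm (Fin 5)) =
      (swap 4 3 * swap 3 0) := by decide
  have := congrArg (tr (embL _ hnd)) key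
  simp only [map_mul, tr_swap, map_one] at this
  exact this

theorem id_Bx {a b c d p q : Ω} (hnd : [a, b, c, d, p, q].Nodup) :
    swap a b * swap c d * (swap p q * (swap p a * swap c q * swap b d)) =
      c3 p b c * c3 q d a := by
  have key : (swap 0 1 * swap 2 3 * (swap 4 5 * (swap 4 0 * swap 2 5 * swap 1 3)) : Perm (Fin 6)) =
      (swap 4 1 * swap 1 2) * (swap 5 3 * swap 3 0) := by decide
  have := congrArg (tr (embL _ hnd)) key
  simp only [map_mul, tr_swap, map_one] at this
  exact this

theorem id_By {a b c d p q : Ω} (hnd : [a, b, c, d, p, q].Nodup) :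
    swap b c * swap d a * (swap p q * (swap p a * swap c q * swap b d)) =
      c3 p d c * c3 q b a := by
  have key : (swap 1 2 * swap 3 0 * (swap 4 5 * (swap 4 0 * swap 2 5 * swap 1 3)) : Perm (Fin 6)) =
      (swap 4 3 * swap 3 2) * (swap 5 1 * swap 1 0) := by decide
  have := congrArg (tr (embL _ hnd)) key
  simp only [map_mul, tr_swap, map_one] at this
  exact this

theorem id_Bz {a b c d p q : Ω} (hnd : [a, b, c, d, p, q].Nodup) :
    swap p a * swap c q * swap b d * (swap p a * swap c q * swap b d) =
      1 := by
  have key : (swap 4 0 * swap 2 5 * swap 1 3 * (swap 4 0 * swap 2 5 * swap 1 3) : Perm (Fin 6)) =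
      1 := by decide
  have := congrArg (tr (embL _ hnd)) key
  simp only [map_mul, tr_swap, map_one] at this
  exact this

theorem id_Az {a b c p : Ω} (hnd : [a, b, c, p].Nodup) :
    swap p a * swap b c * (swap p a * swap b c) =
      1 := by
  have key : (swap 3 0 * swap 1 2 * (swap 3 0 * swap 1 2) : Perm (Fin 4)) =
      1 := by decide
  have := congrArg (tr (embL _ hnd)) key
  simp only [map_mul, tr_swap, map_one] at this
  exact this

theorem id_bcde {b c d e : Ω} (hnd : [b, c, d, e].Nodup) :
    swap b c * swap d e * (swap b c * swap d e) =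
      1 := by
  have key : (swap 0 1 * swap 2 3 * (swap 0 1 * swap 2 3) : Perm (Fin 4)) =
      1 := by decide
  have := congrArg (tr (embL _ hnd)) key
  simp only [map_mul, tr_swap, map_one] at this
  exact this

theorem id_C8x {a b c d e f g h : Ω} (hnd : [a, b, c, d, e, f, g, h].Nodup) :
    swap a b * swap c d * swap e f * swap g h * (swap a b * swap d e * swap c g * swap f h) =
      c3 c h e * c3 d f g := by
  have key : (swap 0 1 * swap 2 3 * swap 4 5 * swap 6 7 * (swap 0 1 * swap 3 4 * swap 2 6 * swap 5 7) : Perm (Fin 8)) =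
      (swap 2 7 * swap 7 4) * (swap 3 5 * swap 5 6) := by decide
  have := congrArg (tr (embL _ hnd)) key
  simp only [map_mul, tr_swap, map_one] at this
  exact this

theorem id_C8y {a b c d e f g h : Ω} (hnd : [a, b, c, d, e, f, g, h].Nodup) :
    swap b c * swap d e * swap f g * swap h a * (swap a b * swap d e * swap c g * swap f h) =
      c3 a c f * c3 b h g := by
  have key : (swap 1 2 * swap 3 4 * swap 5 6 * swap 7 0 * (swap 0 1 * swap 3 4 * swap 2 6 * swap 5 7) : Perm (Fin 8)) =
      (swap 0 2 * swap 2 5) * (swap 1 7 * swap 7 6) := by decide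
  have := congrArg (tr (embL _ hnd)) key
  simp only [map_mul, tr_swap, map_one] at this
  exact this

theorem id_C8z {a b c d e f g h : Ω} (hnd : [a, b, c, d, e, f, g, h].Nodup) :
    swap a b * swap d e * swap c g * swap f h * (swap a b * swap d e * swap c g * swap f h) =
      1 := by
  have key : (swap 0 1 * swap 3 4 * swap 2 6 * swap 5 7 * (swap 0 1 * swap 3 4 * swap 2 6 * swap 5 7) : Perm (Fin 8)) =
      1 := by decide
  have := congrArg (tr (embL _ hnd)) key
  simp only [map_mul, tr_swap, map_one] at this
  exact this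

theorem id_CCx {a b c d e f g h : Ω} (hnd : [a, b, c, d, e, f, g, h].Nodup) :
    swap a b * swap c d * swap e f * swap g h * (swap a b * swap f g * swap c e * swap d h) =
      c3 c f h * c3 d g e := by
  have key : (swap 0 1 * swap 2 3 * swap 4 5 * swap 6 7 * (swap 0 1 * swap 5 6 * swap 2 4 * swap 3 7) : Perm (Fin 8)) =
      (swap 2 5 * swap 5 7) * (swap 3 6 * swap 6 4) := by decide
  have := congrArg (tr (embL _ hnd)) key
  simp only [map_mul, tr_swap, map_one] at this
  exact this

theorem id_CCy {a b c d e f g h : Ω} (hnd : [a, b, c, d, e, f, g, h].Nodup) :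
    swap b c * swap d a * swap f g * swap h e * (swap a b * swap f g * swap c e * swap d h) =
      c3 a c h * c3 b d e := by
  have key : (swap 1 2 * swap 3 0 * swap 5 6 * swap 7 4 * (swap 0 1 * swap 5 6 * swap 2 4 * swap 3 7) : Perm (Fin 8)) =
      (swap 0 2 * swap 2 7) * (swap 1 3 * swap 3 4) := by decide
  have := congrArg (tr (embL _ hnd)) key
  simp only [map_mul, tr_swap, map_one] at this
  exact this

theorem id_CCz {a b c d e f g h : Ω} (hnd : [a, b, c, d, e, f, g, h].Nodup) :
    swap a b * swap f g * swap c e * swap d h * (swap a b * swap f g * swap c e * swap d h) =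
      1 := by
  have key : (swap 0 1 * swap 5 6 * swap 2 4 * swap 3 7 * (swap 0 1 * swap 5 6 * swap 2 4 * swap 3 7) : Perm (Fin 8)) =
      1 := by decide
  have := congrArg (tr (embL _ hnd)) key
  simp only [map_mul, tr_swap, map_one] at this
  exact this

end Cfsg.Agent.Lib.Helper78.LFG
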