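import Cfsg.Agent.Lib.Helper78.LFG.Ids

set_option autoImplicit false
set_option linter.unusedSectionVars false

/-! # Local fusion graph of the symmetric group: the algebraic form of the reductions -/

namespace Cfsg.Agent.Lib.Helper78.LFG

open Equiv Equiv.Perm

variable {Ω : Type*} [DecidableEq Ω]

theorem cs (σ : Perm Ω) {a b : Ω} (ha : σ a = a) (hb : σ b = b) : Commute (swap a b) σ := by
  show swap a b * σ = σ * swap a b
  rw [mul_swap_eq_swap_mul, ha, hb]

theorem sq_mul {z t : Perm Ω} (hz : z * z = 1) (ht : t * t = 1) (hc : Commute t z) :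
    (z * t) * (z * t) = 1 := by
  calc (z * t) * (z * t) = z * (t * z) * t := by group
    _ = z * (z * t) * t := by rw [hc.eq]
    _ = (z * z) * (t * t) := by group
    _ = 1 := by rw [hz, ht, one_mul]

theorem move {x z X Z : Perm Ω} (hc : Commute X z) : x * X * (z * Z) = x * z * (X * Z) := by
  calc x * X * (z * Z) = x * (X * z) * Z := by group
    _ = x * (z * X) * Z := by rw [hc.eq]
    _ = x * z * (X * Z) := by group

theorem fix_mul {σ τ : Perm Ω} {s : Ω} (h1 : σ s = s) (h2 : τ s = s) : (σ * τ) s = s := by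
  rw [Perm.mul_apply, h2, h1]

theorem OddOrd.insert2 {w : Perm Ω} (hw : OddOrd w) {p q r p' q' r' : Ω}
    (hnd : [p, q, r, q', r'].Nodup) (h1 : p' ≠ q') (h2 : p' ≠ r')
    (hq : w q = q) (hr : w r = r) (hq' : w q' = q') (hr' : w r' = r') :
    OddOrd (w * (c3 p q r * c3 p' q' r')) := by
  rw [← mul_assoc]
  refine (hw.insert (by rintro rfl; simp at hnd) (by rintro rfl; simp at hnd)
    (by rintro rfl; simp at hnd) hq hr).insert h1 h2 (by rintro rfl; simp at hnd) ?_ ?_
  · rw [Perm.mul_apply, c3_of_ne (by rintro rfl; simp at hnd) (by rintro rfl; simp at hnd)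
      (by rintro rfl; simp at hnd), hq']
  · rw [Perm.mul_apply, c3_of_ne (by rintro rfl; simp at hnd) (by rintro rfl; simp at hnd)
      (by rintro rfl; simp at hnd), hr']

/-- removal of a common transposition -/
theorem red_C2 {x y z : Perm Ω} {a b : Ω} (za : z a = a) (zb : z b = b) (hz : z * z = 1)
    (h1 : OddOrd (x * z)) (h2 : OddOrd (y * z)) :
    (z * swap a b) * (z * swap a b) = 1 ∧ OddOrd (x * swap a b * (z * swap a b)) ∧
      OddOrd (y * swap a b * (z * swap a b)) := by
  have hc := cs z za zb
  refine ⟨sq_mul hz (swap_mul_self a b) hc, ?_, ?_⟩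
  · rw [move hc, swap_mul_self, mul_one]; exact h1
  · rw [move hc, swap_mul_self, mul_one]; exact h2

/-- trimming the end `a -x- b -y- c` of a path (`a` fixed by `y`) -/
theorem red_T1 {x y z : Perm Ω} {a b c : Ω} (hnd : [a, b, c].Nodup)
    (ya : y a = a) (yb : y b = b) (za : z a = a) (zb : z b = b) (hz : z * z = 1)
    (h1 : OddOrd (x * z)) (h2 : OddOrd (y * z)) :
    (z * swap a b) * (z * swap a b) = 1 ∧ OddOrd (x * swap a b * (z * swap a b)) ∧
      OddOrd (y * swap b c * (z * swap a b)) := by
  have hc := cs z za zb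
  refine ⟨sq_mul hz (swap_mul_self a b) hc, ?_, ?_⟩
  · rw [move hc, swap_mul_self, mul_one]; exact h1
  · apply OddOrd.comm
    rw [move (cs y ya yb)]
    have hab : a ≠ b := by rintro rfl; simp at hnd
    have hac : a ≠ c := by rintro rfl; simp at hnd
    have hbc : b ≠ c := by rintro rfl; simp at hnd
    have e : swap a b * swap b c = c3 c a b := by
      rw [c3_rot hac.symm hbc.symm hab]; rfl
    rw [e]
    exact h2.comm.insert hac.symm hbc.symm hab (fix_mul za ya) (fix_mul zb yb)

/-- removal of an `x`-edge `{a,b}` fixed by `y` together with a `y`-edge `{c,d}` fixed by `x` -/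
theorem red_P2 {x y z : Perm Ω} {a b c d : Ω} (hnd : [a, b, c, d].Nodup)
    (xb : x b = b) (xc : x c = c) (yc : y c = c) (yd : y d = d)
    (za : z a = a) (zb : z b = b) (zc : z c = c) (zd : z d = d) (hz : z * z = 1)
    (h1 : OddOrd (x * z)) (h2 : OddOrd (y * z)) :
    (z * swap a c) * (z * swap a c) = 1 ∧ OddOrd (x * swap a b * (z * swap a c)) ∧
      OddOrd (y * swap c d * (z * swap a c)) := by
  refine ⟨sq_mul hz (swap_mul_self a c) (cs z za zc), ?_, ?_⟩
  · rw [move (cs z za zb), id_R5x (a := a) (b := b) (c := c) (by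
      simp only [List.nodup_cons, List.mem_cons] at hnd ⊢; tauto)]
    exact h1.insert (by rintro rfl; simp at hnd) (by rintro rfl; simp at hnd)
      (by rintro rfl; simp at hnd) (fix_mul xc zc) (fix_mul xb zb)
  · rw [move (cs z zc zd), id_R5y (a := a) (c := c) (d := d) (by
      simp only [List.nodup_cons, List.mem_cons] at hnd ⊢; tauto)]
    exact h2.insert (by rintro rfl; simp at hnd) (by rintro rfl; simp at hnd)
      (by rintro rfl; simp at hnd) (fix_mul yd zd) (fix_mul yc zc)

/-- contraction of `a -x- b -y- c -x- d -y- e -x- f` to `a -x- f` -/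
theorem red_R3 {x y z : Perm Ω} {a b c d e f : Ω} (hnd : [a, b, c, d, e, f].Nodup)
    (xb : x b = b) (xc : x c = c) (xd : x d = d) (xe : x e = e)
    (zb : z b = b) (zc : z c = c) (zd : z d = d) (ze : z e = e) (hz : z * z = 1)
    (h1 : OddOrd (x * z)) (h2 : OddOrd (y * z)) :
    (z * (swap b c * swap d e)) * (z * (swap b c * swap d e)) = 1 ∧
      OddOrd (x * (swap a f * (swap a b * swap c d * swap e f)) * (z * (swap b c * swap d e))) ∧
      OddOrd (y * (swap b c * swap d e) * (z * (swap b c * swap d e))) := by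
  have hB : swap b c * swap d e * (swap b c * swap d e) = 1 :=
    id_bcde (b := b) (c := c) (d := d) (e := e) (by
      simp only [List.nodup_cons, List.mem_cons] at hnd ⊢; tauto)
  have hcz : Commute (swap b c * swap d e) z := (cs z zb zc).mul_left (cs z zd ze)
  have hcx : Commute (swap b c * swap d e) x := (cs x xb xc).mul_left (cs x xd xe)
  refine ⟨sq_mul hz hB hcz, ?_, ?_⟩
  · apply OddOrd.comm
    rw [move hcx, id_R3 hnd]
    exact h1.comm.insert2 (by simp only [List.nodup_cons, List.mem_cons] at hnd ⊢; tauto)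
      (by rintro rfl; simp at hnd) (by rintro rfl; simp at hnd)
      (fix_mul zc xc) (fix_mul ze xe) (fix_mul zd xd) (fix_mul zb xb)
  · rw [move hcz, hB, mul_one]; exact h2

/-- absorption of a 4-cycle `a -x- b -y- c -x- d -y- a` at a fixed point `p` of `z` -/
theorem red_A {x y z : Perm Ω} {a b c d p : Ω} (hnd : [a, b, c, d, p].Nodup)
    (xa : x a = a) (xb : x b = b) (xc : x c = c) (xd : x d = d)
    (ya : y a = a) (yd : y d = d)
    (za : z a = a) (zb : z b = b) (zc : z c = c) (zd : z d = d) (zp : z p = p) (hz : z * z = 1)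
    (h1 : OddOrd (x * z)) (h2 : OddOrd (y * z)) :
    (z * (swap p a * swap b c)) * (z * (swap p a * swap b c)) = 1 ∧
      OddOrd (x * (swap a b * swap c d) * (z * (swap p a * swap b c))) ∧
      OddOrd (y * (swap b c * swap d a) * (z * (swap p a * swap b c))) := by
  refine ⟨sq_mul hz (id_Az (a := a) (b := b) (c := c) (p := p) (by
      simp only [List.nodup_cons, List.mem_cons] at hnd ⊢; tauto))
    ((cs z zp za).mul_left (cs z zb zc)), ?_, ?_⟩
  · rw [move ((cs z za zb).mul_left (cs z zc zd)), id_Ax hnd]
    exact h1.insert2 (by simp only [List.nodup_cons, List.mem_cons] at hnd ⊢; tauto)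
      (by rintro rfl; simp at hnd) (by rintro rfl; simp at hnd)
      (fix_mul xb zb) (fix_mul xd zd) (fix_mul xc zc) (fix_mul xa za)
  · rw [move ((cs z zb zc).mul_left (cs z zd za)), id_Ay hnd]
    exact h2.insert (by rintro rfl; simp at hnd) (by rintro rfl; simp at hnd)
      (by rintro rfl; simp at hnd) (fix_mul yd zd) (fix_mul ya za)

/-- absorption of a 4-cycle `a -x- b -y- c -x- d -y- a` at a transposition `(p q)` of `z` -/
theorem red_B {x y z : Perm Ω} {a b c d p q : Ω} (hnd : [a, b, c, d, p, q].Nodup)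
    (xa : x a = a) (xb : x b = b) (xc : x c = c) (xd : x d = d)
    (ya : y a = a) (yb : y b = b) (yc : y c = c) (yd : y d = d)
    (za : z a = a) (zb : z b = b) (zc : z c = c) (zd : z d = d) (zp : z p = q) (zq : z q = p)
    (hz : z * z = 1) (h1 : OddOrd (x * z)) (h2 : OddOrd (y * z)) :
    (z * (swap p q * (swap p a * swap c q * swap b d))) *
        (z * (swap p q * (swap p a * swap c q * swap b d))) = 1 ∧
      OddOrd (x * (swap a b * swap c d) * (z * (swap p q * (swap p a * swap c q * swap b d)))) ∧
      OddOrd (y * (swap b c * swap d a) * (z * (swap p q * (swap p a * swap c q * swap b d)))) := by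
  refine ⟨?_, ?_, ?_⟩
  · have hc1 : Commute (swap p q) z := by
      show swap p q * z = z * swap p q
      rw [mul_swap_eq_swap_mul, zp, zq, swap_comm]
    have hz1 : (z * swap p q) * (z * swap p q) = 1 := sq_mul hz (swap_mul_self p q) hc1
    have f1 : (z * swap p q) p = p := by rw [Perm.mul_apply, swap_apply_left, zq]
    have f2 : (z * swap p q) q = q := by rw [Perm.mul_apply, swap_apply_right, zp]
    have f3 : ∀ s, s ≠ p → s ≠ q → z s = s → (z * swap p q) s = s := fun s h1 h2 h3 => by
      rw [Perm.mul_apply, swap_apply_of_ne_of_ne h1 h2, h3]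
    have fa := f3 a (by rintro rfl; simp at hnd) (by rintro rfl; simp at hnd) za
    have fb := f3 b (by rintro rfl; simp at hnd) (by rintro rfl; simp at hnd) zb
    have fc := f3 c (by rintro rfl; simp at hnd) (by rintro rfl; simp at hnd) zc
    have fd := f3 d (by rintro rfl; simp at hnd) (by rintro rfl; simp at hnd) zd
    have e : z * (swap p q * (swap p a * swap c q * swap b d)) =
        (z * swap p q) * (swap p a * swap c q * swap b d) := (mul_assoc _ _ _).symm
    rw [e]
    exact sq_mul hz1 (id_Bz hnd) (((cs _ f1 fa).mul_left (cs _ fc f2)).mul_left (cs _ fb fd))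
  · rw [move ((cs z za zb).mul_left (cs z zc zd)), id_Bx hnd]
    exact h1.insert2 (by simp only [List.nodup_cons, List.mem_cons] at hnd ⊢; tauto)
      (by rintro rfl; simp at hnd) (by rintro rfl; simp at hnd)
      (fix_mul xb zb) (fix_mul xc zc) (fix_mul xd zd) (fix_mul xa za)
  · rw [move ((cs z zb zc).mul_left (cs z zd za)), id_By hnd]
    exact h2.insert2 (by simp only [List.nodup_cons, List.mem_cons] at hnd ⊢; tauto)
      (by rintro rfl; simp at hnd) (by rintro rfl; simp at hnd)
      (fix_mul yd zd) (fix_mul yc zc) (fix_mul yb zb) (fix_mul ya za)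

/-- an 8-cycle -/
theorem sol_C8 {a b c d e f g h : Ω} (hnd : [a, b, c, d, e, f, g, h].Nodup) :
    (swap a b * swap d e * swap c g * swap f h) * (swap a b * swap d e * swap c g * swap f h) = 1 ∧
      OddOrd (swap a b * swap c d * swap e f * swap g h *
        (swap a b * swap d e * swap c g * swap f h)) ∧
      OddOrd (swap b c * swap d e * swap f g * swap h a *
        (swap a b * swap d e * swap c g * swap f h)) := by
  refine ⟨id_C8z hnd, ?_, ?_⟩
  · rw [id_C8x hnd, ← one_mul (c3 c h e * c3 d f g)]
    exact oddOrd_one.insert2 (by simp only [List.nodup_cons, List.mem_cons] at hnd ⊢; tauto)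
      (by rintro rfl; simp at hnd) (by rintro rfl; simp at hnd) rfl rfl rfl rfl
  · rw [id_C8y hnd, ← one_mul (c3 a c f * c3 b h g)]
    exact oddOrd_one.insert2 (by simp only [List.nodup_cons, List.mem_cons] at hnd ⊢; tauto)
      (by rintro rfl; simp at hnd) (by rintro rfl; simp at hnd) rfl rfl rfl rfl

/-- two 4-cycles `a b c d` and `e f g h` -/
theorem sol_CC {a b c d e f g h : Ω} (hnd : [a, b, c, d, e, f, g, h].Nodup) :
    (swap a b * swap f g * swap c e * swap d h) * (swap a b * swap f g * swap c e * swap d h) = 1 ∧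
      OddOrd (swap a b * swap c d * swap e f * swap g h *
        (swap a b * swap f g * swap c e * swap d h)) ∧
      OddOrd (swap b c * swap d a * swap f g * swap h e *
        (swap a b * swap f g * swap c e * swap d h)) := by
  refine ⟨id_CCz hnd, ?_, ?_⟩
  · rw [id_CCx hnd, ← one_mul (c3 c f h * c3 d g e)]
    exact oddOrd_one.insert2 (by simp only [List.nodup_cons, List.mem_cons] at hnd ⊢; tauto)
      (by rintro rfl; simp at hnd) (by rintro rfl; simp at hnd) rfl rfl rfl rfl
  · rw [id_CCy hnd, ← one_mul (c3 a c h * c3 b d e)]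
    exact oddOrd_one.insert2 (by simp only [List.nodup_cons, List.mem_cons] at hnd ⊢; tauto)
      (by rintro rfl; simp at hnd) (by rintro rfl; simp at hnd) rfl rfl rfl rfl

end Cfsg.Agent.Lib.Helper78.LFG
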