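import Cfsg.Agent.Lib.Helper78.LFG.Cfg

set_option autoImplicit false
set_option linter.unusedSectionVars false

/-! # Local fusion graph of the symmetric group: the easy reduction steps -/

namespace Cfsg.Agent.Lib.Helper78.LFG

open Equiv Equiv.Perm

variable {Ω : Type*} [DecidableEq Ω] [Fintype Ω]

theorem Cfg.red {S T T1 T2 : Finset Ω} {x y x' y' X Y : Perm Ω} {k : ℕ} (h : Cfg S x y)
    (hx : Peeled x x' X T1 k) (hy : Peeled y y' Y T2 k)
    (hxT : ∀ s ∈ T, x' s = s) (hyT : ∀ s ∈ T, y' s = s) : Cfg (S \ T) x' y' :=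
  ⟨hx.1, hy.1, supp_sdiff hxT (hx.out h.xS), supp_sdiff hyT (hy.out h.yS), by
    have := hx.2.2.2.2; have := hy.2.2.2.2; have := h.card; omega⟩

theorem Exc.symm {S : Finset Ω} {x y : Perm Ω} (h : Exc S x y) : Exc S y x := by
  obtain ⟨a, b, c, d, h4, rfl⟩ := h
  refine ⟨b, c, d, a, h4.symm, ?_⟩
  ext s; simp only [Finset.mem_insert, Finset.mem_singleton]; tauto

theorem Exc.moved_x {S : Finset Ω} {x y : Perm Ω} (h : Exc S x y) (hx : x * x = 1)
    (hy : y * y = 1) {p : Ω} (hp : p ∈ S) : x p ≠ p := by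
  have := (h.at hx hy hp).1.1
  intro e
  rw [e] at this
  simp at this

theorem Exc.moved_y {S : Finset Ω} {x y : Perm Ω} (h : Exc S x y) (hx : x * x = 1)
    (hy : y * y = 1) {p : Ω} (hp : p ∈ S) : y p ≠ p :=
  h.symm.moved_x hy hx hp

def NoC4 (x y : Perm Ω) : Prop := ¬ ∃ a b c d, IsC4 x y a b c d

theorem NoC4.symm {x y : Perm Ω} (h : NoC4 x y) : NoC4 y x := by
  rintro ⟨a, b, c, d, h4⟩
  exact h ⟨b, c, d, a, h4.symm⟩

theorem fix_out {S T : Finset Ω} {z' Z : Perm Ω} (hz : ∀ s, s ∉ S \ T → z' s = s)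
    (hZ : ∀ s, s ∉ S → Z s = s) : ∀ s, s ∉ S → (z' * Z) s = s :=
  fun s hs => fix_mul (hz s (fun h => hs (Finset.mem_sdiff.1 h).1)) (hZ s hs)

theorem swap_fix {S : Finset Ω} {a b : Ω} (ha : a ∈ S) (hb : b ∈ S) :
    ∀ s, s ∉ S → swap a b s = s :=
  fun s hs => swap_apply_of_ne_of_ne (by rintro rfl; exact hs ha) (by rintro rfl; exact hs hb)

theorem fix_in {S T : Finset Ω} {z' : Perm Ω} (hz : ∀ s, s ∉ S \ T → z' s = s) {a : Ω}
    (ha : a ∈ T) : z' a = a :=
  hz a (fun h => (Finset.mem_sdiff.1 h).2 ha)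

theorem moved_img {x : Perm Ω} {a : Ω} (h : x a ≠ a) : x (x a) ≠ x a :=
  fun e => h (x.injective e)

/-- a common fixed point -/
theorem step_fix {S : Finset Ω} {x y : Perm Ω} (h : Cfg S x y) (ih : IHyp S) (h4 : NoC4 x y)
    {a : Ω} (ha : a ∈ S) (xa : x a = a) (ya : y a = a) : Sol S x y := by
  have cfg : Cfg (S.erase a) x y := by
    refine ⟨h.xx, h.yy, ?_, ?_, h.card⟩
    · intro s hs
      by_cases e : s = a
      · rw [e]; exact xa
      · exact h.xS s (fun hS => hs (Finset.mem_erase.2 ⟨e, hS⟩))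
    · intro s hs
      by_cases e : s = a
      · rw [e]; exact ya
      · exact h.yS s (fun hS => hs (Finset.mem_erase.2 ⟨e, hS⟩))
  have hE : ¬ Exc (S.erase a) x y := by
    rintro ⟨p, q, r, s, hc, -⟩
    exact h4 ⟨p, q, r, s, hc⟩
  exact (ih _ x y (Finset.card_erase_lt_of_mem ha) cfg hE).mono (Finset.erase_subset a S)

/-- a common transposition -/
theorem step_C2 {S : Finset Ω} {x y : Perm Ω} (h : Cfg S x y) (ih : IHyp S) (h4 : NoC4 x y)
    {a : Ω} (xa : x a ≠ a) (hy : y a = x a) : Sol S x y := by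
  obtain ⟨b, hb⟩ : ∃ b, x a = b := ⟨_, rfl⟩
  rw [hb] at xa hy
  have hab : a ≠ b := xa.symm
  obtain ⟨x', px⟩ : ∃ x', Peeled x x' (swap a b) {a, b} 2 := ⟨_, peel1 h.xx hab hb⟩
  obtain ⟨y', py⟩ : ∃ y', Peeled y y' (swap a b) {a, b} 2 := ⟨_, peel1 h.yy hab hy⟩
  have aS : a ∈ S := mem_of_moved h.xS (by rw [hb]; exact xa)
  have bS : b ∈ S := mem_of_moved h.xS (by rw [← hb]; exact moved_img (by rw [hb]; exact xa))
  have cfg := h.red px py px.2.1 py.2.1
  have hE : ¬ Exc (S \ {a, b}) x' y' := fun hE => h4 (exc_transfer hE px.2.2.1 py.2.2.1)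
  obtain ⟨z, hz, zS, h1, h2⟩ := ih _ x' y' (card_sdiff_lt aS (by simp)) cfg hE
  have r := red_C2 (a := a) (b := b) (fix_in zS (by simp)) (fix_in zS (by simp)) hz h1 h2
  rw [px.2.2.2.1, py.2.2.2.1] at r
  exact ⟨_, r.1, fix_out zS (swap_fix aS bS), r.2.1, r.2.2⟩

/-- the end of a path -/
theorem step_T1 {S : Finset Ω} {x y : Perm Ω} (h : Cfg S x y) (ih : IHyp S)
    {a : Ω} (ya : y a = a) (xa : x a ≠ a) (yb : y (x a) ≠ x a) : Sol S x y := by
  obtain ⟨b, hb⟩ : ∃ b, x a = b := ⟨_, rfl⟩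
  rw [hb] at xa yb
  obtain ⟨c, hc⟩ : ∃ c, y b = c := ⟨_, rfl⟩
  rw [hc] at yb
  have hab : a ≠ b := xa.symm
  have hbc : b ≠ c := yb.symm
  have hac : a ≠ c := by
    rintro rfl
    apply hab
    rw [← ya, ← hc, inv_apply h.yy]
  have hnd : [a, b, c].Nodup := by simp [hab, hbc, hac]
  obtain ⟨x', px⟩ : ∃ x', Peeled x x' (swap a b) {a, b} 2 := ⟨_, peel1 h.xx hab hb⟩
  obtain ⟨y', py⟩ : ∃ y', Peeled y y' (swap b c) {b, c} 2 := ⟨_, peel1 h.yy hbc hc⟩
  have aS : a ∈ S := mem_of_moved h.xS (by rw [hb]; exact xa)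
  have bS : b ∈ S := mem_of_moved h.yS (by rw [hc]; exact yb)
  have cS : c ∈ S := mem_of_moved h.yS (by rw [← hc]; exact moved_img (by rw [hc]; exact yb))
  have ya' : y' a = a := by rw [py.2.2.1 a (by simp [hab, hac]), ya]
  have yb' : y' b = b := py.2.1 b (by simp)
  have yc' : y' c = c := py.2.1 c (by simp)
  have hyT : ∀ s ∈ ({a, b} : Finset Ω), y' s = s := by
    intro s hs
    simp only [Finset.mem_insert, Finset.mem_singleton] at hs
    rcases hs with rfl | rfl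
    · exact ya'
    · exact yb'
  have cfg := h.red px py px.2.1 hyT
  have hE : ¬ Exc (S \ {a, b}) x' y' := fun hE =>
    hE.moved_y cfg.xx cfg.yy (p := c) (by simp [cS, hac.symm, hbc.symm]) yc'
  obtain ⟨z, hz, zS, h1, h2⟩ := ih _ x' y' (card_sdiff_lt aS (by simp)) cfg hE
  have r := red_T1 hnd ya' yb' (fix_in zS (by simp)) (fix_in zS (by simp)) hz h1 h2
  rw [px.2.2.2.1, py.2.2.2.1] at r
  exact ⟨_, r.1, fix_out zS (swap_fix aS bS), r.2.1, r.2.2⟩

/-- an isolated `x`-edge and an isolated `y`-edge -/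
theorem step_P2 {S : Finset Ω} {x y : Perm Ω} (h : Cfg S x y) (ih : IHyp S) (h4 : NoC4 x y)
    (hT : ∀ c, x c = c → y c ≠ c → x (y c) = y c)
    {a : Ω} (ya : y a = a) (xa : x a ≠ a) (yb : y (x a) = x a) : Sol S x y := by
  obtain ⟨c, xc, yc⟩ := exists_dual h.card ya xa
  have xd := hT c xc yc
  obtain ⟨b, hb⟩ : ∃ b, x a = b := ⟨_, rfl⟩
  obtain ⟨d, hd⟩ : ∃ d, y c = d := ⟨_, rfl⟩
  have xb : x b = a := by rw [← hb, inv_apply h.xx]
  have yd : y d = c := by rw [← hd, inv_apply h.yy]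
  rw [hb] at xa yb
  rw [hd] at yc xd
  have hab : a ≠ b := xa.symm
  have hcd : c ≠ d := yc.symm
  have hac : a ≠ c := by rintro rfl; exact hab (xc.symm.trans hb)
  have had : a ≠ d := by rintro rfl; exact hab (xd.symm.trans hb)
  have hbc : b ≠ c := by rintro rfl; exact hab (xb.symm.trans xc)
  have hbd : b ≠ d := by rintro rfl; exact hab (xb.symm.trans xd)
  have hnd : [a, b, c, d].Nodup := by simp [hab, hac, had, hbc, hbd, hcd]
  obtain ⟨x', px⟩ : ∃ x', Peeled x x' (swap a b) {a, b} 2 := ⟨_, peel1 h.xx hab hb⟩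
  obtain ⟨y', py⟩ : ∃ y', Peeled y y' (swap c d) {c, d} 2 := ⟨_, peel1 h.yy hcd hd⟩
  have aS : a ∈ S := mem_of_moved h.xS (by rw [hb]; exact xa)
  have cS : c ∈ S := mem_of_moved h.yS (by rw [hd]; exact yc)
  have xa' : x' a = a := px.2.1 a (by simp)
  have xb' : x' b = b := px.2.1 b (by simp)
  have xc' : x' c = c := by rw [px.2.2.1 c (by simp [hac.symm, hbc.symm]), xc]
  have xd' : x' d = d := by rw [px.2.2.1 d (by simp [had.symm, hbd.symm]), xd]
  have ya' : y' a = a := by rw [py.2.2.1 a (by simp [hac, had]), ya]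
  have yb' : y' b = b := by rw [py.2.2.1 b (by simp [hbc, hbd]), yb]
  have yc' : y' c = c := py.2.1 c (by simp)
  have yd' : y' d = d := py.2.1 d (by simp)
  have hxT : ∀ s ∈ ({a, b, c, d} : Finset Ω), x' s = s := by
    intro s hs
    simp only [Finset.mem_insert, Finset.mem_singleton] at hs
    rcases hs with rfl | rfl | rfl | rfl <;> assumption
  have hyT : ∀ s ∈ ({a, b, c, d} : Finset Ω), y' s = s := by
    intro s hs
    simp only [Finset.mem_insert, Finset.mem_singleton] at hs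
    rcases hs with rfl | rfl | rfl | rfl <;> assumption
  have cfg := h.red px py hxT hyT
  have hE : ¬ Exc (S \ {a, b, c, d}) x' y' := fun hE => h4 (exc_transfer hE
    (fun s hs => px.2.2.1 s (by
      simp only [Finset.mem_insert, Finset.mem_singleton] at hs ⊢; tauto))
    (fun s hs => py.2.2.1 s (by
      simp only [Finset.mem_insert, Finset.mem_singleton] at hs ⊢; tauto)))
  obtain ⟨z, hz, zS, h1, h2⟩ := ih _ x' y' (card_sdiff_lt aS (by simp)) cfg hE
  have r := red_P2 hnd xb' xc' yc' yd' (fix_in zS (by simp)) (fix_in zS (by simp))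
    (fix_in zS (by simp)) (fix_in zS (by simp)) hz h1 h2
  rw [px.2.2.2.1, py.2.2.2.1] at r
  exact ⟨_, r.1, fix_out zS (swap_fix aS cS), r.2.1, r.2.2⟩

end Cfsg.Agent.Lib.Helper78.LFG
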