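import Cfsg.Agent.Lib.Helper78.LFG.Step1

set_option autoImplicit false
set_option linter.unusedSectionVars false

/-! # Local fusion graph of the symmetric group: absorbing a 4-cycle -/

namespace Cfsg.Agent.Lib.Helper78.LFG

open Equiv Equiv.Perm

variable {Ω : Type*} [DecidableEq Ω] [Fintype Ω]

theorem Peeled.refl {x : Perm Ω} (hx : x * x = 1) : Peeled x x 1 ∅ 0 :=
  ⟨hx, fun s hs => by simp at hs, fun _ _ => rfl, mul_one x, rfl⟩

theorem Peeled.next {x x' X : Perm Ω} {T : Finset Ω} {k : ℕ} (h : Peeled x x' X T k) {a b : Ω}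
    (hab : a ≠ b) (haT : a ∉ T) (hx : x a = b) :
    Peeled x (x' * swap a b) (swap a b * X) (T ∪ {a, b}) (k + 2) :=
  h.trans (peel1 h.1 hab (by rw [h.2.2.1 a haT]; exact hx))

theorem Peeled.cast {x x' X X' : Perm Ω} {T T' : Finset Ω} {k : ℕ} (h : Peeled x x' X T k)
    (hX : X = X') (hT : T = T') : Peeled x x' X' T' k := by
  subst hX; subst hT; exact h

theorem peel2' {x : Perm Ω} (hx : x * x = 1) {a b c d : Ω} (hnd : [a, b, c, d].Nodup)
    (h1 : x a = b) (h2 : x c = d) :
    ∃ x', Peeled x x' (swap a b * swap c d) {a, b, c, d} 4 := by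
  refine ⟨_, (peel2 hx hnd h1 h2).cast rfl ?_⟩
  ext s; simp only [Finset.mem_union, Finset.mem_insert, Finset.mem_singleton]; tauto

theorem peel3' {x : Perm Ω} (hx : x * x = 1) {a b c d e f : Ω} (hnd : [a, b, c, d, e, f].Nodup)
    (h1 : x a = b) (h2 : x c = d) (h3 : x e = f) :
    ∃ x', Peeled x x' (swap a b * swap c d * swap e f) {a, b, c, d, e, f} 6 := by
  simp only [List.nodup_cons, List.mem_cons, List.not_mem_nil, not_or, or_false] at hnd
  refine ⟨_, ((((Peeled.refl hx).next (a := e) (b := f) (by tauto) (by simp) h3).next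
    (a := c) (b := d) (by tauto) (by
      simp only [Finset.mem_union, Finset.mem_insert, Finset.mem_singleton, Finset.notMem_empty]
      tauto) h2).next
    (a := a) (b := b) (by tauto) (by
      simp only [Finset.mem_union, Finset.mem_insert, Finset.mem_singleton, Finset.notMem_empty]
      tauto) h1).cast (by simp only [mul_one, mul_assoc]) ?_⟩
  ext s
  simp only [Finset.mem_union, Finset.mem_insert, Finset.mem_singleton, Finset.notMem_empty]
  tauto

theorem eq_swaps4 {x : Perm Ω} (hx : x * x = 1) {a b c d e f g h : Ω}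
    (hnd : [a, b, c, d, e, f, g, h].Nodup)
    (h1 : x a = b) (h2 : x c = d) (h3 : x e = f) (h4 : x g = h)
    (hS : ∀ s, s ∉ ({a, b, c, d, e, f, g, h} : Finset Ω) → x s = s) :
    x = swap a b * swap c d * swap e f * swap g h := by
  simp only [List.nodup_cons, List.mem_cons, List.not_mem_nil, not_or, or_false] at hnd
  have p := ((((Peeled.refl hx).next (a := g) (b := h) (by tauto) (by simp) h4).next
    (a := e) (b := f) (by tauto) (by
      simp only [Finset.mem_union, Finset.mem_insert, Finset.mem_singleton, Finset.notMem_empty]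
      tauto) h3).next
    (a := c) (b := d) (by tauto) (by
      simp only [Finset.mem_union, Finset.mem_insert, Finset.mem_singleton, Finset.notMem_empty]
      tauto) h2).next
    (a := a) (b := b) (by tauto) (by
      simp only [Finset.mem_union, Finset.mem_insert, Finset.mem_singleton, Finset.notMem_empty]
      tauto) h1
  obtain ⟨-, p2, p3, p4, -⟩ := p
  have e1 : x * swap g h * swap e f * swap c d * swap a b = 1 := by
    ext s
    by_cases hs : s ∈ (∅ ∪ {g, h} ∪ {e, f} ∪ {c, d} ∪ {a, b} : Finset Ω)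
    · rw [p2 s hs]; rfl
    · rw [p3 s hs, hS s (by
        simp only [Finset.mem_union, Finset.mem_insert, Finset.mem_singleton,
          Finset.notMem_empty] at hs ⊢
        tauto)]
      rfl
  rw [e1] at p4
  rw [← p4]
  simp only [mul_one, one_mul, mul_assoc]

theorem nodup8_rot {e f g k a b c d : Ω} (h : [e, f, g, k, a, b, c, d].Nodup) :
    [f, g, k, e, b, c, d, a].Nodup := by
  simp only [List.nodup_cons, List.mem_cons, List.not_mem_nil, not_or, or_false] at h ⊢
  tauto

theorem notMem8_rot {s e f g k a b c d : Ω} (hs : s ∉ ({f, g, k, e, b, c, d, a} : Finset Ω)) :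
    s ∉ ({e, f, g, k, a, b, c, d} : Finset Ω) := by
  simp only [Finset.mem_insert, Finset.mem_singleton] at hs ⊢; tauto

theorem nodup8_app {e f g k a b c d : Ω} (h1 : [e, f, g, k].Nodup) (h2 : [a, b, c, d].Nodup)
    (h : ∀ s ∈ ({e, f, g, k} : Finset Ω), s ∉ ({a, b, c, d} : Finset Ω)) :
    [e, f, g, k, a, b, c, d].Nodup := by
  have := h1.append h2 (by
    intro s hs hs'
    exact h s (by simpa using hs) (by simpa using hs'))
  simpa using this

theorem notMem8_split {S : Finset Ω} {s e f g k a b c d : Ω}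
    (hS : S \ {a, b, c, d} = {e, f, g, k})
    (hs : s ∉ ({e, f, g, k, a, b, c, d} : Finset Ω)) : s ∉ S := by
  intro hsS
  have : s ∈ S \ {a, b, c, d} := Finset.mem_sdiff.2 ⟨hsS, by
    simp only [Finset.mem_insert, Finset.mem_singleton] at hs ⊢; tauto⟩
  rw [hS] at this
  simp only [Finset.mem_insert, Finset.mem_singleton] at this hs
  tauto

theorem nodup5_of {a b c d p : Ω} (h : [a, b, c, d].Nodup)
    (hp : p ∉ ({a, b, c, d} : Finset Ω)) : [a, b, c, d, p].Nodup := by
  have := h.append (List.nodup_singleton p) (by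
    intro s hs hs'
    rw [List.mem_singleton] at hs'
    subst hs'
    exact hp (by simpa using hs))
  simpa using this

theorem nodup6_of {a b c d p q : Ω} (h : [a, b, c, d].Nodup) (hpq : p ≠ q)
    (hp : p ∉ ({a, b, c, d} : Finset Ω)) (hq : q ∉ ({a, b, c, d} : Finset Ω)) :
    [a, b, c, d, p, q].Nodup := by
  have := h.append (l₂ := [p, q]) (by simp [hpq]) (by
    intro s hs hs'
    simp only [List.mem_cons, List.not_mem_nil, or_false] at hs'
    rcases hs' with rfl | rfl
    · exact hp (by simpa using hs)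
    · exact hq (by simpa using hs))
  simpa using this

/-- a 4-cycle -/
theorem step_C4 {S : Finset Ω} {x y : Perm Ω} (h : Cfg S x y) (hE : ¬ Exc S x y) (ih : IHyp S)
    {a b c d : Ω} (h4 : IsC4 x y a b c d) : Sol S x y := by
  obtain ⟨hnd, h1, h2, h3, h4'⟩ := h4
  have hnd' : [b, c, d, a].Nodup := by
    simp only [List.nodup_cons, List.mem_cons] at hnd ⊢; tauto
  obtain ⟨x', px⟩ := peel2' h.xx hnd h1 h3
  obtain ⟨y', py0⟩ := peel2' h.yy hnd' h2 h4'
  have py : Peeled y y' (swap b c * swap d a) {a, b, c, d} 4 := py0.cast rfl (by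
    ext s; simp only [Finset.mem_insert, Finset.mem_singleton]; tauto)
  have hab : a ≠ b := by rintro rfl; simp at hnd
  have hbc : b ≠ c := by rintro rfl; simp at hnd
  have hcd : c ≠ d := by rintro rfl; simp at hnd
  have hda : d ≠ a := by rintro rfl; simp at hnd
  have aS : a ∈ S := mem_of_moved h.xS (by rw [h1]; exact hab.symm)
  have bS : b ∈ S := mem_of_moved h.yS (by rw [h2]; exact hbc.symm)
  have cS : c ∈ S := mem_of_moved h.xS (by rw [h3]; exact hcd.symm)
  have dS : d ∈ S := mem_of_moved h.yS (by rw [h4']; exact hda.symm)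
  have cfg := h.red px py px.2.1 py.2.1
  have hlt : (S \ {a, b, c, d}).card < S.card := card_sdiff_lt aS (by simp)
  by_cases hE' : Exc (S \ {a, b, c, d}) x' y'
  · obtain ⟨e, f, g, k, ⟨hnd2, g1, g2, g3, g4⟩, hS'⟩ := hE'
    have hm : ∀ s ∈ ({e, f, g, k} : Finset Ω), s ∈ S ∧ s ∉ ({a, b, c, d} : Finset Ω) :=
      fun s hs => by
        rw [← hS'] at hs; exact Finset.mem_sdiff.1 hs
    have me := hm e (by simp)
    have mf := hm f (by simp)
    have mg := hm g (by simp)
    have mk := hm k (by simp)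
    have hnd8 : [e, f, g, k, a, b, c, d].Nodup := nodup8_app hnd2 hnd (fun s hs => (hm s hs).2)
    have hnd8' : [f, g, k, e, b, c, d, a].Nodup := nodup8_rot hnd8
    have hSeq : ∀ s, s ∉ ({e, f, g, k, a, b, c, d} : Finset Ω) → s ∉ S :=
      fun s hs => notMem8_split hS' hs
    have ex : x = swap e f * swap g k * swap a b * swap c d :=
      eq_swaps4 h.xx hnd8 (by rw [← px.2.2.1 e me.2]; exact g1)
        (by rw [← px.2.2.1 g mg.2]; exact g3) h1 h3 (fun s hs => h.xS s (hSeq s hs))
    have ey : y = swap f g * swap k e * swap b c * swap d a :=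
      eq_swaps4 h.yy hnd8' (by rw [← py.2.2.1 f mf.2]; exact g2)
        (by rw [← py.2.2.1 k mk.2]; exact g4) h2 h4' (fun s hs => h.yS s (hSeq s (notMem8_rot hs)))
    have r := sol_CC hnd8
    rw [← ex, ← ey] at r
    exact ⟨_, r.1, fun s hs => fix_mul (fix_mul (fix_mul (swap_fix me.1 mf.1 s hs)
      (swap_fix bS cS s hs)) (swap_fix mg.1 aS s hs)) (swap_fix mk.1 dS s hs), r.2.1, r.2.2⟩
  · obtain ⟨z, hz, zS, o1, o2⟩ := ih _ x' y' hlt cfg hE'
    obtain ⟨p, hp⟩ : ∃ p, p ∈ S \ {a, b, c, d} := by
      by_contra hcon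
      push Not at hcon
      apply hE
      refine ⟨a, b, c, d, ⟨hnd, h1, h2, h3, h4'⟩, ?_⟩
      ext s
      constructor
      · intro hs
        by_contra hn
        exact hcon s (Finset.mem_sdiff.2 ⟨hs, hn⟩)
      · intro hs
        simp only [Finset.mem_insert, Finset.mem_singleton] at hs
        rcases hs with rfl | rfl | rfl | rfl <;> assumption
    have pS := (Finset.mem_sdiff.1 hp).1
    have pT := (Finset.mem_sdiff.1 hp).2
    have xa := px.2.1 a (by simp)
    have xb := px.2.1 b (by simp)
    have xc := px.2.1 c (by simp)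
    have xd := px.2.1 d (by simp)
    have ya := py.2.1 a (by simp)
    have yb := py.2.1 b (by simp)
    have yc := py.2.1 c (by simp)
    have yd := py.2.1 d (by simp)
    have za : z a = a := fix_in zS (by simp)
    have zb : z b = b := fix_in zS (by simp)
    have zc : z c = c := fix_in zS (by simp)
    have zd : z d = d := fix_in zS (by simp)
    by_cases zp : z p = p
    · have hnd5 : [a, b, c, d, p].Nodup := nodup5_of hnd pT
      have r := red_A hnd5 xa xb xc xd ya yd za zb zc zd zp hz o1 o2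
      rw [px.2.2.2.1, py.2.2.2.1] at r
      exact ⟨_, r.1, fix_out zS (fun s hs => fix_mul (swap_fix pS aS s hs) (swap_fix bS cS s hs)),
        r.2.1, r.2.2⟩
    · obtain ⟨q, hq⟩ : ∃ q, z p = q := ⟨_, rfl⟩
      have zq : z q = p := by rw [← hq, inv_apply hz]
      have hpq : p ≠ q := by rw [hq] at zp; exact fun e => zp e.symm
      have qm : q ∈ S \ {a, b, c, d} := mem_of_moved zS (by rw [zq]; exact hpq)
      have qS := (Finset.mem_sdiff.1 qm).1
      have qT := (Finset.mem_sdiff.1 qm).2
      have hnd6 : [a, b, c, d, p, q].Nodup := nodup6_of hnd hpq pT qT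
      have r := red_B hnd6 xa xb xc xd ya yb yc yd za zb zc zd hq zq hz o1 o2
      rw [px.2.2.2.1, py.2.2.2.1] at r
      exact ⟨_, r.1, fix_out zS (fun s hs => fix_mul (swap_fix pS qS s hs)
        (fix_mul (fix_mul (swap_fix pS aS s hs) (swap_fix cS qS s hs)) (swap_fix bS dS s hs))),
        r.2.1, r.2.2⟩

end Cfsg.Agent.Lib.Helper78.LFG
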