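import Cfsg.Agent.Lib.Helper78.LFG.Step2

set_option autoImplicit false
set_option linter.unusedSectionVars false

/-! # Local fusion graph of the symmetric group: contracting a long alternating path -/

namespace Cfsg.Agent.Lib.Helper78.LFG

open Equiv Equiv.Perm

variable {Ω : Type*} [DecidableEq Ω] [Fintype Ω]

/-- six consecutive points of an alternating path are distinct -/
theorem six_points {x y : Perm Ω} (hxx : x * x = 1) (hyy : y * y = 1) (h4 : NoC4 x y)
    (h2 : ∀ a, x a ≠ a → y a ≠ x a) {a b c d e f : Ω}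
    (hb : x a = b) (hc : y b = c) (hd : x c = d) (he : y d = e) (hf : x e = f)
    (ab : a ≠ b) (bc : b ≠ c) (cd : c ≠ d) (de : d ≠ e) (ef : e ≠ f) :
    [a, b, c, d, e, f].Nodup := by
  have xb : x b = a := by rw [← hb, inv_apply hxx]
  have yc : y c = b := by rw [← hc, inv_apply hyy]
  have xd : x d = c := by rw [← hd, inv_apply hxx]
  have ye : y e = d := by rw [← he, inv_apply hyy]
  have xf : x f = e := by rw [← hf, inv_apply hxx]
  have ac : a ≠ c := by
    intro e'
    apply h2 a (by rw [hb]; exact ab.symm)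
    rw [hb, e', yc]
  have bd : b ≠ d := by
    intro e'; apply ac; rw [← xb, e', xd]
  have ce : c ≠ e := by
    intro e'; apply bd; rw [← yc, e', ye]
  have df : d ≠ f := by
    intro e'; apply ce; rw [← xd, e', xf]
  have ad : a ≠ d := by
    intro e'; apply bc; rw [← hb, e', xd]
  have be : b ≠ e := by
    intro e'; apply cd; rw [← hc, e', ye]
  have cf : c ≠ f := by
    intro e'; apply de; rw [← hd, e', xf]
  have ae : a ≠ e := by
    intro e'
    exact h4 ⟨a, b, c, d, by simp [ab, ac, ad, bc, bd, cd], hb, hc, hd, he.trans e'.symm⟩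
  have bf : b ≠ f := by
    intro e'; apply ae; rw [← xb, e', xf]
  have af : a ≠ f := by
    intro e'; apply be; rw [← hb, e', xf]
  simp [ab, ac, ad, ae, af, bc, bd, be, bf, cd, ce, cf, de, df, ef]

/-- the contracted involution -/
theorem contract {x : Perm Ω} (hxx : x * x = 1) {a b c d e f : Ω}
    (hnd : [a, b, c, d, e, f].Nodup) (hb : x a = b) (hd : x c = d) (hf : x e = f) :
    ∃ x' : Perm Ω, x' * x' = 1 ∧ x' a = f ∧ x' f = a ∧ x' b = b ∧ x' c = c ∧ x' d = d ∧ x' e = e ∧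
      (∀ s, s ∉ ({a, b, c, d, e, f} : Finset Ω) → x' s = x s) ∧
      x' * (swap a f * (swap a b * swap c d * swap e f)) = x ∧
      x'.support.card + 4 = x.support.card := by
  obtain ⟨x1, p1⟩ := peel3' hxx hnd hb hd hf
  have x1a : x1 a = a := p1.2.1 a (by simp)
  have x1b : x1 b = b := p1.2.1 b (by simp)
  have x1c : x1 c = c := p1.2.1 c (by simp)
  have x1d : x1 d = d := p1.2.1 d (by simp)
  have x1e : x1 e = e := p1.2.1 e (by simp)
  have x1f : x1 f = f := p1.2.1 f (by simp)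
  have af : a ≠ f := by rintro rfl; simp at hnd
  have g : ∀ s, s ≠ a → s ≠ f → (x1 * swap a f) s = x1 s := fun s h1 h2 => by
    rw [Perm.mul_apply, swap_apply_of_ne_of_ne h1 h2]
  refine ⟨x1 * swap a f, sq_mul p1.1 (swap_mul_self a f) (cs x1 x1a x1f), ?_, ?_, ?_, ?_, ?_, ?_,
    ?_, ?_, ?_⟩
  · rw [Perm.mul_apply, swap_apply_left, x1f]
  · rw [Perm.mul_apply, swap_apply_right, x1a]
  · rw [g b (by rintro rfl; simp at hnd) (by rintro rfl; simp at hnd), x1b]
  · rw [g c (by rintro rfl; simp at hnd) (by rintro rfl; simp at hnd), x1c]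
  · rw [g d (by rintro rfl; simp at hnd) (by rintro rfl; simp at hnd), x1d]
  · rw [g e (by rintro rfl; simp at hnd) (by rintro rfl; simp at hnd), x1e]
  · intro s hs
    rw [g s (by rintro rfl; simp at hs) (by rintro rfl; simp at hs), p1.2.2.1 s hs]
  · rw [← mul_assoc, mul_assoc x1, swap_mul_self, mul_one]; exact p1.2.2.2.1
  · have hd : Perm.Disjoint x1 (swap a f) := by
      intro s
      by_cases h1 : s = a
      · left; rw [h1]; exact x1a
      by_cases h2 : s = f
      · left; rw [h2]; exact x1f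
      right; exact swap_apply_of_ne_of_ne h1 h2
    have h1 := hd.card_support_mul
    rw [card_support_swap af] at h1
    have h2 := p1.2.2.2.2
    omega

theorem nodupC8 {a b c d e f g k : Ω} (h1 : [a, b, c, d, e, f].Nodup) (h2 : [a, f, g, k].Nodup)
    (hg : g ∉ ({b, c, d, e} : Finset Ω)) (hk : k ∉ ({b, c, d, e} : Finset Ω)) :
    [g, k, a, b, c, d, e, f].Nodup := by
  simp only [Finset.mem_insert, Finset.mem_singleton, not_or] at hg hk
  simp only [List.nodup_cons, List.mem_cons, List.not_mem_nil, not_or, or_false] at h1 h2 ⊢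
  tauto

theorem nodup8_rot1 {a b c d e f g k : Ω} (h : [g, k, a, b, c, d, e, f].Nodup) :
    [k, a, b, c, d, e, f, g].Nodup := by
  simp only [List.nodup_cons, List.mem_cons, List.not_mem_nil, not_or, or_false] at h ⊢
  tauto

theorem notMemC8 {S : Finset Ω} {s a b c d e f g k : Ω}
    (hS : S \ {b, c, d, e} = {a, f, g, k})
    (hs : s ∉ ({g, k, a, b, c, d, e, f} : Finset Ω)) : s ∉ S := by
  intro hsS
  have : s ∈ S \ {b, c, d, e} := Finset.mem_sdiff.2 ⟨hsS, by
    simp only [Finset.mem_insert, Finset.mem_singleton] at hs ⊢; tauto⟩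
  rw [hS] at this
  simp only [Finset.mem_insert, Finset.mem_singleton] at this hs
  tauto

theorem notMem8_rot1 {s a b c d e f g k : Ω}
    (hs : s ∉ ({k, a, b, c, d, e, f, g} : Finset Ω)) :
    s ∉ ({g, k, a, b, c, d, e, f} : Finset Ω) := by
  simp only [Finset.mem_insert, Finset.mem_singleton] at hs ⊢; tauto

theorem notMem6 {a b c d e f g k : Ω} (h : [g, k, a, b, c, d, e, f].Nodup) :
    g ∉ ({a, b, c, d, e, f} : Finset Ω) := by
  simp only [Finset.mem_insert, Finset.mem_singleton]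
  simp only [List.nodup_cons, List.mem_cons, List.not_mem_nil, not_or, or_false] at h
  tauto

theorem six_sub {a b c d e f : Ω} (hnd : [a, b, c, d, e, f].Nodup) :
    [b, c, d, e].Nodup ∧ a ∉ ({b, c, d, e} : Finset Ω) ∧ f ∉ ({b, c, d, e} : Finset Ω) := by
  simp only [Finset.mem_insert, Finset.mem_singleton]
  simp only [List.nodup_cons, List.mem_cons, List.not_mem_nil, not_or, or_false] at hnd ⊢
  tauto

/-- all points moved by both involutions, no 2-cycle and no 4-cycle -/
theorem step_R3 {S : Finset Ω} {x y : Perm Ω} (h : Cfg S x y) (ih : IHyp S) (h4 : NoC4 x y)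
    (h2 : ∀ a, x a ≠ a → y a ≠ x a)
    (hx : ∀ s ∈ S, x s ≠ s) (hy : ∀ s ∈ S, y s ≠ s) {a : Ω} (ha : a ∈ S) : Sol S x y := by
  obtain ⟨b, hb⟩ : ∃ b, x a = b := ⟨_, rfl⟩
  obtain ⟨c, hc⟩ : ∃ c, y b = c := ⟨_, rfl⟩
  obtain ⟨d, hd⟩ : ∃ d, x c = d := ⟨_, rfl⟩
  obtain ⟨e, he⟩ : ∃ e, y d = e := ⟨_, rfl⟩
  obtain ⟨f, hf⟩ : ∃ f, x e = f := ⟨_, rfl⟩
  have clx : ∀ s ∈ S, x s ∈ S := fun s hs => mem_of_moved h.xS (moved_img (hx s hs))
  have cly : ∀ s ∈ S, y s ∈ S := fun s hs => mem_of_moved h.yS (moved_img (hy s hs))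
  have bS : b ∈ S := hb ▸ clx a ha
  have cS : c ∈ S := hc ▸ cly b bS
  have dS : d ∈ S := hd ▸ clx c cS
  have eS : e ∈ S := he ▸ cly d dS
  have fS : f ∈ S := hf ▸ clx e eS
  have hnd : [a, b, c, d, e, f].Nodup := six_points h.xx h.yy h4 h2 hb hc hd he hf
    (fun e' => hx a ha (hb.trans e'.symm)) (fun e' => hy b bS (hc.trans e'.symm))
    (fun e' => hx c cS (hd.trans e'.symm)) (fun e' => hy d dS (he.trans e'.symm))
    (fun e' => hx e eS (hf.trans e'.symm))
  obtain ⟨hnd4, aT, fT⟩ := six_sub hnd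
  obtain ⟨x', hx', x'a, x'f, x'b, x'c, x'd, x'e, x'out, ex, xcard⟩ := contract h.xx hnd hb hd hf
  obtain ⟨y', py⟩ := peel2' h.yy hnd4 hc he
  have x'T : ∀ s ∈ ({b, c, d, e} : Finset Ω), x' s = s := by
    intro s hs
    simp only [Finset.mem_insert, Finset.mem_singleton] at hs
    rcases hs with rfl | rfl | rfl | rfl <;> assumption
  have x'S : ∀ s, s ∉ S → x' s = s := by
    intro s hs
    rw [x'out s (by
      simp only [Finset.mem_insert, Finset.mem_singleton]
      rintro (rfl | rfl | rfl | rfl | rfl | rfl) <;> exact hs (by assumption)), h.xS s hs]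
  have cfg : Cfg (S \ {b, c, d, e}) x' y' :=
    ⟨hx', py.1, supp_sdiff x'T x'S, supp_sdiff py.2.1 (py.out h.yS), by
      have := py.2.2.2.2; have := h.card; omega⟩
  have hlt : (S \ {b, c, d, e}).card < S.card := card_sdiff_lt bS (by simp)
  by_cases hE' : Exc (S \ {b, c, d, e}) x' y'
  · have hat := hE'.at hx' py.1 (p := a) (Finset.mem_sdiff.2 ⟨ha, aT⟩)
    obtain ⟨g, hg⟩ : ∃ g, y' f = g := ⟨_, rfl⟩
    obtain ⟨k, hk⟩ : ∃ k, x' g = k := ⟨_, rfl⟩
    rw [x'a, hg, hk] at hat
    obtain ⟨⟨hnd', -, -, -, g4⟩, hS'⟩ := hat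
    have hm : ∀ s ∈ ({a, f, g, k} : Finset Ω), s ∈ S ∧ s ∉ ({b, c, d, e} : Finset Ω) :=
      fun s hs => by
        rw [← hS'] at hs; exact Finset.mem_sdiff.1 hs
    have mg := hm g (by simp)
    have mk := hm k (by simp)
    have hnd8 : [g, k, a, b, c, d, e, f].Nodup := nodupC8 hnd hnd' mg.2 mk.2
    have yf : y f = g := by rw [← py.2.2.1 f fT]; exact hg
    have xg : x g = k := by rw [← x'out g (notMem6 hnd8)]; exact hk
    have yk : y k = a := by rw [← py.2.2.1 k mk.2]; exact g4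
    have ex' : x = swap g k * swap a b * swap c d * swap e f :=
      eq_swaps4 h.xx hnd8 xg hb hd hf (fun s hs => h.xS s (notMemC8 hS' hs))
    have ey' : y = swap k a * swap b c * swap d e * swap f g :=
      eq_swaps4 h.yy (nodup8_rot1 hnd8) yk hc he yf
        (fun s hs => h.yS s (notMemC8 hS' (notMem8_rot1 hs)))
    have r := sol_C8 hnd8
    rw [← ex', ← ey'] at r
    exact ⟨_, r.1, fun s hs => fix_mul (fix_mul (fix_mul (swap_fix mg.1 mk.1 s hs)
      (swap_fix bS cS s hs)) (swap_fix ha eS s hs)) (swap_fix dS fS s hs), r.2.1, r.2.2⟩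
  · obtain ⟨z, hz, zS, o1, o2⟩ := ih _ x' y' hlt cfg hE'
    have r := red_R3 hnd x'b x'c x'd x'e (fix_in zS (by simp)) (fix_in zS (by simp))
      (fix_in zS (by simp)) (fix_in zS (by simp)) hz o1 o2
    rw [ex, py.2.2.2.1] at r
    exact ⟨_, r.1, fix_out zS (fun s hs => fix_mul (swap_fix bS cS s hs) (swap_fix dS eS s hs)),
      r.2.1, r.2.2⟩

/-- the inductive step -/
theorem step {S : Finset Ω} {x y : Perm Ω} (h : Cfg S x y) (hE : ¬ Exc S x y) (ih : IHyp S) :
    Sol S x y := by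
  by_cases h4 : ∃ a b c d, IsC4 x y a b c d
  · obtain ⟨a, b, c, d, h4⟩ := h4
    exact step_C4 h hE ih h4
  have h4' : NoC4 x y := h4
  by_cases hf : ∃ a ∈ S, x a = a ∧ y a = a
  · obtain ⟨a, ha, xa, ya⟩ := hf
    exact step_fix h ih h4' ha xa ya
  by_cases h2 : ∃ a, x a ≠ a ∧ y a = x a
  · obtain ⟨a, xa, ya⟩ := h2
    exact step_C2 h ih h4' xa ya
  by_cases ht : ∃ a, y a = a ∧ x a ≠ a ∧ y (x a) ≠ x a
  · obtain ⟨a, ya, xa, yb⟩ := ht
    exact step_T1 h ih ya xa yb
  by_cases ht' : ∃ a, x a = a ∧ y a ≠ a ∧ x (y a) ≠ y a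
  · obtain ⟨a, ya, xa, yb⟩ := ht'
    exact (step_T1 h.symm ih ya xa yb).symm
  push Not at hf h2 ht ht'
  by_cases hp : ∃ a, y a = a ∧ x a ≠ a
  · obtain ⟨a, ya, xa⟩ := hp
    exact step_P2 h ih h4' ht' ya xa (ht a ya xa)
  push Not at hp
  have hp' : ∀ a, x a = a → y a = a := by
    intro a xa
    by_contra ya
    obtain ⟨c, yc, xc⟩ := exists_dual h.card.symm xa ya
    exact xc (hp c yc)
  have hx : ∀ s ∈ S, x s ≠ s := fun s hs xs => hf s hs xs (hp' s xs)
  have hy : ∀ s ∈ S, y s ≠ s := fun s hs ys => hx s hs (hp s ys)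
  rcases S.eq_empty_or_nonempty with rfl | ⟨a, ha⟩
  · have x1 : x = 1 := Equiv.ext fun s => h.xS s (by simp)
    have y1 : y = 1 := Equiv.ext fun s => h.yS s (by simp)
    subst x1; subst y1
    exact ⟨1, one_mul 1, fun _ _ => rfl, by rw [one_mul]; exact oddOrd_one,
      by rw [one_mul]; exact oddOrd_one⟩
  · exact step_R3 h ih h4' h2 hx hy ha

/-- **Main theorem**: two involutions with the same number of moved points, supported on `S`,
have a common "odd neighbour" supported on `S`, except for a single 4-cycle. -/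
theorem main (S : Finset Ω) (x y : Perm Ω) (h : Cfg S x y) (hE : ¬ Exc S x y) : Sol S x y := by
  suffices H : ∀ (n : ℕ) (S : Finset Ω), S.card = n → ∀ x y : Perm Ω, Cfg S x y → ¬ Exc S x y →
      Sol S x y from H _ S rfl x y h hE
  intro n
  induction n using Nat.strong_induction_on with
  | _ n ih =>
    intro S hS x y h hE
    exact step h hE (fun S' x' y' hc h' hE' => ih S'.card (hS ▸ hc) S' rfl x' y' h' hE')

end Cfsg.Agent.Lib.Helper78.LFG
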