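import Cfsg.Agent.Lib.Helper78.LFG.Step3

set_option autoImplicit false
set_option linter.unusedSectionVars false

/-! # Local fusion graph of the symmetric group: the graph-theoretic wrapper -/

namespace Cfsg.Agent.Lib.Helper78.LFG

open Equiv Equiv.Perm

/-- W1 -/
theorem conj_of_odd {G : Type*} [Group G] {x z : G} (hx : x * x = 1) (hz : z * z = 1)
    (h : Odd (orderOf (x * z))) : IsConj x z := by
  obtain ⟨m, hm⟩ := h
  set u := x * z with hu
  have hpow : u ^ (2 * m + 1) = 1 := by rw [← hm]; exact pow_orderOf_eq_one u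
  have hxi : x⁻¹ = x := inv_eq_of_mul_eq_one_left hx
  have hzi : z⁻¹ = z := inv_eq_of_mul_eq_one_left hz
  have hinv : x * u * x = u⁻¹ := by
    rw [hu, mul_inv_rev, hxi, hzi, ← mul_assoc, hx, one_mul]
  -- x * u^k = u^{-k} * x
  have hk : ∀ k : ℕ, x * u ^ k = (u⁻¹) ^ k * x := by
    intro k
    induction k with
    | zero => simp
    | succ k ih =>
      rw [pow_succ, ← mul_assoc, ih, pow_succ, mul_assoc, mul_assoc]
      congr 1
      rw [← hinv, mul_assoc, mul_assoc, hx, mul_one]
  rw [isConj_iff]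
  refine ⟨(u⁻¹) ^ (m + 1), ?_⟩
  have e1 : (u⁻¹) ^ (m + 1) * x = x * u ^ (m + 1) := (hk _).symm
  rw [e1, inv_pow, inv_inv, mul_assoc, ← pow_add]
  have : m + 1 + (m + 1) = (2 * m + 1) + 1 := by ring
  rw [this, pow_succ, hpow, one_mul, hu, ← mul_assoc, hx, one_mul]

/-- W4 -/
theorem card_support_of_conj {α : Type*} [DecidableEq α] [Fintype α] {x y : Equiv.Perm α}
    (h : IsConj x y) : x.support.card = y.support.card := by
  rw [← Equiv.Perm.sum_cycleType, ← Equiv.Perm.sum_cycleType,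
    (Equiv.Perm.isConj_iff_cycleType_eq).1 h]

/-- W3 -/
theorem diam_two {V : Type*} [Finite V] (G : SimpleGraph V)
    (h2 : ∀ x y : V, x ≠ y → ¬ G.Adj x y → ∃ z, G.Adj x z ∧ G.Adj z y)
    (hne : ∃ x y : V, x ≠ y ∧ ¬ G.Adj x y) : G.Connected ∧ G.diam = 2 := by
  obtain ⟨x0, y0, hxy, hnadj⟩ := hne
  have : Nonempty V := ⟨x0⟩
  have hw : ∀ x y : V, ∃ w : G.Walk x y, w.length ≤ 2 := by
    intro x y
    by_cases e : x = y
    · subst e; exact ⟨.nil, by simp⟩
    by_cases ha : G.Adj x y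
    · exact ⟨ha.toWalk, by simp⟩
    obtain ⟨z, h1, h2⟩ := h2 x y e ha
    exact ⟨.cons h1 h2.toWalk, by simp⟩
  have hconn : G.Connected := ⟨fun x y => (hw x y).choose.reachable⟩
  have htop : G.ediam ≠ ⊤ := SimpleGraph.connected_iff_ediam_ne_top.1 hconn
  refine ⟨hconn, le_antisymm ?_ ?_⟩
  · obtain ⟨u, v, huv⟩ := G.exists_dist_eq_diam
    rw [← huv]
    obtain ⟨w, hw⟩ := hw u v
    exact (SimpleGraph.dist_le w).trans hw
  · have h : G.dist x0 y0 ≤ G.diam := SimpleGraph.dist_le_diam htop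
    have h0 : G.dist x0 y0 ≠ 0 := by
      rw [Ne, (hconn.preconnected x0 y0).dist_eq_zero_iff]; exact hxy
    have h1 : G.dist x0 y0 ≠ 1 := by rw [Ne, SimpleGraph.dist_eq_one_iff_adj]; exact hnadj
    omega

theorem id_W {Ω : Type*} [DecidableEq Ω] {a b c d : Ω} (hnd : [a, b, c, d].Nodup) :
    swap b c * swap a d * (swap b d * swap a c) = swap a b * swap c d := by
  have key : (swap 1 2 * swap 0 3 * (swap 1 3 * swap 0 2) : Perm (Fin 4)) =
      swap 0 1 * swap 2 3 := by decide
  have := congrArg (tr (embL _ hnd)) key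
  simp only [map_mul, tr_swap] at this
  exact this

theorem not_odd_two_swaps {Ω : Type*} [DecidableEq Ω] {a b c d : Ω} (hnd : [a, b, c, d].Nodup) :
    swap a b * swap c d ≠ 1 ∧ ¬ Odd (orderOf (swap a b * swap c d)) := by
  have h1 : swap a b * swap c d ≠ 1 := by
    intro h
    have := congrArg (fun f : Perm Ω => f a) h
    simp only [Perm.mul_apply, Perm.one_apply] at this
    have e : swap c d a = a :=
      swap_apply_of_ne_of_ne (by rintro rfl; simp at hnd) (by rintro rfl; simp at hnd)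
    rw [e, swap_apply_left] at this
    subst this
    simp at hnd
  refine ⟨h1, ?_⟩
  have : orderOf (swap a b * swap c d) = 2 :=
    orderOf_eq_prime (by rw [pow_two]; exact id_bcde hnd) h1
  rw [this]
  decide

/-- W2 -/
theorem exists_nonadj (n : ℕ) (hn : 5 ≤ n) (t : Equiv.Perm (Fin n)) (ht : orderOf t = 2) :
    ∃ y : Equiv.Perm (Fin n), IsConj t y ∧ y ≠ t ∧ ¬ Odd (orderOf (t * y)) ∧
      ¬ Odd (orderOf (y * t)) := by
  have htt : t * t = 1 := by rw [← pow_two, ← ht]; exact pow_orderOf_eq_one t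
  have ht1 : t ≠ 1 := by
    rintro rfl
    simp at ht
  -- it suffices to find `g` with `t * (g t g⁻¹)` a product of two disjoint transpositions
  suffices H : ∃ (g : Perm (Fin n)) (a b c d : Fin n), [a, b, c, d].Nodup ∧
      t * (g * t * g⁻¹) = swap a b * swap c d by
    obtain ⟨g, a, b, c, d, hnd, e⟩ := H
    obtain ⟨h1, h2⟩ := not_odd_two_swaps hnd
    refine ⟨g * t * g⁻¹, isConj_iff.2 ⟨g, rfl⟩, ?_, by rw [e]; exact h2, ?_⟩
    · intro h
      rw [h, htt] at e
      exact h1 e.symm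
    · intro h
      rw [← oddOrd_iff] at h
      have := (oddOrd_iff _).1 h.comm
      rw [e] at this
      exact h2 this
  obtain ⟨a, ha⟩ : ∃ a, t a ≠ a := by
    by_contra hcon
    push Not at hcon
    exact ht1 (Equiv.ext hcon)
  obtain ⟨b, hb⟩ : ∃ b, t a = b := ⟨_, rfl⟩
  have tb : t b = a := by rw [← hb, inv_apply htt]
  have hab : a ≠ b := by rw [hb] at ha; exact ha.symm
  by_cases hc : ∃ c, c ≠ a ∧ c ≠ b ∧ t c ≠ c
  · obtain ⟨c, ca, cb, tc⟩ := hc
    obtain ⟨d, hd⟩ : ∃ d, t c = d := ⟨_, rfl⟩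
    have td : t d = c := by rw [← hd, inv_apply htt]
    have hcd : c ≠ d := by rw [hd] at tc; exact tc.symm
    have da : d ≠ a := by
      intro e; apply cb; rw [← td, e, hb]
    have db : d ≠ b := by
      intro e; apply ca; rw [← td, e, tb]
    refine ⟨swap b c, a, d, b, c, by simp [hab, ca.symm, cb.symm, da.symm, db, hcd.symm], ?_⟩
    have e0 : t * swap b c = swap a d * t := by rw [mul_swap_eq_swap_mul, tb, hd]
    rw [swap_inv, ← mul_assoc, ← mul_assoc, e0, mul_assoc (swap a d), htt, mul_one]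
  · push Not at hc
    have hcard : 2 < ({a, b}ᶜ : Finset (Fin n)).card := by
      rw [Finset.card_compl, Fintype.card_fin, Finset.card_pair hab]
      omega
    obtain ⟨c, hc', d, hd', hcd⟩ := Finset.one_lt_card.1 (by omega : 1 < ({a, b}ᶜ : Finset (Fin n)).card)
    simp only [Finset.mem_compl, Finset.mem_insert, Finset.mem_singleton, not_or] at hc' hd'
    have tc := hc c hc'.1 hc'.2
    have td := hc d hd'.1 hd'.2
    have hnd : [a, b, c, d].Nodup := by
      simp [hab, Ne.symm hc'.1, Ne.symm hc'.2, Ne.symm hd'.1, Ne.symm hd'.2, hcd]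
    refine ⟨swap a c * swap b d, a, b, c, d, hnd, ?_⟩
    rw [mul_inv_rev, swap_inv, swap_inv, ← id_W hnd]
    have e1 : t * (swap a c * swap b d) = swap b c * swap a d * t := by
      have e2 : t * swap a c = swap b c * t := by rw [mul_swap_eq_swap_mul, hb, tc]
      have e3 : t * swap b d = swap a d * t := by rw [mul_swap_eq_swap_mul, tb, td]
      rw [← mul_assoc, e2, mul_assoc, e3, mul_assoc]
    calc t * (swap a c * swap b d * t * (swap b d * swap a c))
        = (t * (swap a c * swap b d)) * t * (swap b d * swap a c) := by simp only [mul_assoc]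
      _ = swap b c * swap a d * (t * t) * (swap b d * swap a c) := by rw [e1]; simp only [mul_assoc]
      _ = _ := by rw [htt, mul_one]

end Cfsg.Agent.Lib.Helper78.LFG
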